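/- U4 tower (row S5210), slots Opp2 and Gn. -/
import Cfsg.Agent.H28.U4Gen

set_option autoImplicit false
set_option linter.unusedSectionVars false
set_option linter.unusedVariables false

open Subgroup H90.RF H92 Cfsg H28.U4
open H90.U5 (BF DD)

universe v

namespace H95.U4O

variable {K : Type*} [Field K] [Finite K] {T : BF K}

theorem jobOpp2 : JobOpp2.{v} := by
  intro p hp K _ _ _ T h2 G h g hg
  refine or_iff_not_imp_right.2 fun k => ?_
  obtain ⟨w0, a0, b0, n0⟩ : ∃ w : K × K, w.1 = 0 ∧ (g w).1 = 0 ∧ w ≠ 0 := by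
    by_contra k'
    exact k fun w a b => by_contra fun c => k' ⟨w, a, b, c⟩
  have c0 : w0.2 ≠ 0 := fun e => n0 (Prod.ext a0 e)
  obtain ⟨ζ, -, z1, z2, -⟩ := h.form g hg
  have hu := mul_mem (mul_mem hg (h.uu 1 (map_one _))) (inv_mem hg)
  have pl : PL ⇑(g * ub (1 : K) * g⁻¹ : Equiv.Perm (K × K)) := fun w hw => by
    obtain ⟨x, rfl⟩ := g.surjective w
    have e := z1 _ (bf_fix x w0) ((z2 x w0).symm.trans (by simp [bf, hw, b0]))
    obtain ⟨l, hl⟩ := T.exists_mul (x := x.1) c0 (by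
      simp only [bf, a0, map_zero, zero_mul, add_zero, sub_zero] at e
      linear_combination e - T.σ x.1 * w0.2 * h2)
    obtain ⟨l', -, hl'⟩ := h.semi g hg l l.2
    have : ub 1 x = x + (l : K) • w0 := by
      ext
      · simp [ub_apply, a0]
      · simp [ub_apply, hl]
    simp only [Equiv.Perm.coe_mul, Function.comp_apply, Equiv.Perm.coe_inv, Equiv.symm_apply_apply]
    rw [this, h.add g hg, hl']
    simp [hw, b0]
  obtain ⟨b, -, hb⟩ := h.pel _ hu pl ⟨1, by
    rw [pow_one, conj_pow, ub_pow, CharP.cast_eq_zero, zero_mul, ub_zero]; simp⟩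
  intro w hw
  have e : ub b (g w) = g w := by
    rw [← hb]
    simp only [Equiv.Perm.coe_mul, Function.comp_apply, Equiv.Perm.coe_inv, Equiv.symm_apply_apply]
    congr 1
    ext <;> simp [ub_apply, hw]
  have e2 : b * (g w).1 = 0 := by simpa [ub_apply] using congrArg Prod.snd e
  refine (mul_eq_zero.1 e2).resolve_left fun b0 => ?_
  rw [b0, ub_zero, conj_eq_one_iff] at hb
  simpa [ub_apply] using congrArg (fun f : Equiv.Perm (K × K) => (f (1, 0)).2) hb

theorem std {G : Subgroup (Equiv.Perm (K × K))} (hu : ∀ b, T.σ b = b → ub b ∈ G)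
    (hl : ∀ b, T.σ b = b → lb b ∈ G) : nb ∈ G ∧ ∀ s : Kˣ, T.σ s = s → hs s ∈ G := by
  have h1 : T.σ (-1) = -1 := by simp
  refine ⟨?_, fun s k => ?_⟩
  · have : (nb : Equiv.Perm (K × K)) = lb 1 * ub (-1) * lb 1 := by
      ext w <;> simp [nb_apply, lb_apply, ub_apply]
    exact this ▸ mul_mem (mul_mem (hl 1 (map_one _)) (hu _ h1)) (hl 1 (map_one _))
  · have k1 : T.σ (s : K)⁻¹ = (s : K)⁻¹ := by rw [map_inv₀, k]
    have : hs s = lb (s : K)⁻¹ * ub (-(s : K)) * lb (s : K)⁻¹ * (lb (-1) * ub 1 * lb (-1)) := by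
      have := s.ne_zero
      ext w
      · simp [hs_apply, lb_apply, ub_apply]
        field_simp
        ring
      · simp [hs_apply, lb_apply, ub_apply]
        field_simp
        ring
    exact this ▸ mul_mem (mul_mem (mul_mem (hl _ k1) (hu _ (by rw [map_neg, k]))) (hl _ k1))
      (mul_mem (mul_mem (hl _ h1) (hu 1 (map_one _))) (hl _ h1))

theorem ub_cW {G : Subgroup (Equiv.Perm (K × K))} (hu : ∀ b, T.σ b = b → ub b ∈ G) (γ : K) :
    ∀ b, T.σ b = b → ub b ∈ cW (tg T γ) G := fun b hb => by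
  have : tg T γ * ub b * (tg T γ)⁻¹ = ub b := by
    rw [tg_inv]
    ext w
    · simp [tg_apply, ub_apply]
    · simp [tg_apply, ub_apply]; ring
  rw [mem_cW, this]; exact hu b hb

theorem jobGn : JobGn.{v} := by
  intro p hp K _ _ _ T h2 G h lo ⟨g0, hg0, n0⟩
  obtain ⟨β0, γ, -, γ0, -, l0⟩ := lo g0 hg0 n0
  obtain ⟨k1, k2⟩ := std (ub_cW h.uu γ) l0
  refine ⟨γ, γ0, k1, k2, fun g hg => or_iff_not_imp_left.2 fun n => ?_⟩
  have pt : ∀ δ, PL (tg T δ) := fun δ w hw => hw
  obtain ⟨β, γ', hβ, γ1, e, l1⟩ := lo _ (mem_cW.1 hg) fun k => n (by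
    simpa [mul_assoc] using ((pt γ).inv.mul k).mul (pt γ))
  have eg : γ' = γ := by
    rcases h2 with h2 | ⟨s, hs, s0, s1, s2⟩
    · rw [γ0 h2, γ1 h2]
    have a1 := mem_cW.1 (k2 (Units.mk0 s s0) hs)
    have a2 := mem_cW.1 ((std (ub_cW h.uu γ') l1).2 (Units.mk0 s s0) hs)
    have a3 := mul_mem a1 (inv_mem a2)
    have : tg T γ * H28.U4.hs (Units.mk0 s s0) * (tg T γ)⁻¹ *
        (tg T γ' * H28.U4.hs (Units.mk0 s s0) * (tg T γ')⁻¹)⁻¹ = tg T ((1 - s ^ 2) * (γ - γ')) := by
      rw [mul_inv_eq_iff_eq_mul, tg_inv, tg_inv]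
      ext w
      · simp [tg_apply, hs_apply]
      · simp [tg_apply, hs_apply, hs]
        field_simp
        ring
    rw [this] at a3
    obtain ⟨b, -, hb⟩ := h.pel _ a3 (pt _) ⟨1, by
      rw [pow_one, tg_pow, CharP.cast_eq_zero, zero_mul, tg_zero]⟩
    have := (T.lin_zero (x := -b) (y := (1 - s ^ 2) * (γ - γ')) fun t => by
      have := congrArg (fun f : Equiv.Perm (K × K) => (f (t, 0)).2) hb
      simp only [tg_apply, ub_apply] at this
      linear_combination this).2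
    rcases mul_eq_zero.1 this with k | k
    · exact absurd ((sq_eq_one_iff (a := s)).1 (by linear_combination -k)) (by simp [s1, s2])
    · linear_combination -k
  refine ⟨β, hβ, fun w hw => ?_⟩
  have := e w hw
  have e1 : (tg T γ)⁻¹ w = w := by rw [tg_inv]; ext <;> simp [tg_apply, hw]
  simp only [Equiv.Perm.coe_mul, Function.comp_apply, e1, tg_apply, eg] at this
  linear_combination this

end H95.U4O
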