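/- U4 tower (row S5210), slots ZX and NM. -/
import Cfsg.Agent.H28.U4Gen

set_option autoImplicit false
set_option linter.unusedSectionVars false
set_option linter.unusedVariables false

open Subgroup H90.RF H92 Cfsg H28.U4
open H90.U5 (BF DD)

universe v

namespace H95.U4Z

variable {K : Type*} [Field K] [Finite K] {T : BF K}

/-- `u⁻¹ x_t(u)` -/
noncomputable def dl (t : K) (u : Co T) : Co T := u⁻¹ * ux T t u

theorem dl_co (t : K) {u : Co T} (hu : u ∈ sA T) : (dl t u).a = 0 ∧ (dl t u).b = 0 ∧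
    (dl t u).c = t * u.b ∧
    (dl t u).d = (t * T.σ u.c + T.σ t * u.c) + t * T.σ t * u.b := by
  obtain ⟨a, b, c, d⟩ := ux_co t hu
  have ha : u.a = 0 := hu
  simp only [dl, Co.mul_a, Co.mul_b, Co.mul_c, Co.mul_d, Co.inv_a, Co.inv_b, Co.inv_c, Co.inv_d,
    a, b, c, d, ha, A_d ha, map_zero]
  refine ⟨by ring, by ring, by ring, by ring⟩

theorem dl_map {β : Co T → Co T} (a : Au (sA T) β) {t t' : K} {u : Co T} (hu : u ∈ sA T)
    (e : β (ux T t u) = ux T t' (β u)) : β (dl t u) = dl t' (β u) := by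
  rw [dl, a.mul _ (inv_mem hu) _ (ux_co t hu).1, a.inv hu, e, dl]

theorem dl_one {t : K} {u : Co T} : dl t u = 1 ↔ ux T t u = u := by
  rw [dl, inv_mul_eq_one, eq_comm]

theorem fix_iff {t : K} (ht : t ≠ 0) {u : Co T} (hu : u ∈ sA T) :
    ux T t u = u ↔ u.b = 0 ∧ t * T.σ u.c + T.σ t * u.c = 0 := by
  obtain ⟨a, b, c, d⟩ := dl_co t hu
  rw [← dl_one]
  constructor
  · intro e
    rw [e] at c d
    have hb := (mul_eq_zero.1 c.symm).resolve_left ht
    exact ⟨hb, by simpa [hb] using d.symm⟩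
  · rintro ⟨h1, h2⟩
    ext <;> simp [a, b, c, d, h1, h2]

/-- `D` is kept if `Z` is -/
theorem prD {β : Co T → Co T} (a : Au (sA T) β) (hZ : Pr β (sZ T)) {t t' : K} (ht : t' ≠ 0)
    (e : ∀ u ∈ sA T, β (ux T t u) = ux T t' (β u)) : Pr β (sD T) := fun u hu => by
  obtain ⟨k1, k2, k3, -⟩ := dl_co t (D_le_A hu)
  have := hZ _ ⟨k1, k2, by rw [k3, hu.2, mul_zero]⟩
  rw [dl_map a hu.1 (e u hu.1)] at this
  exact ⟨a.mem u hu.1, (mul_eq_zero.1 ((dl_co t' (a.mem u hu.1)).2.2.1.symm.trans this.2.2)).resolve_left ht⟩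

theorem zx (g : G2 T) : ZX T := by
  intro β a c c' hc hc' h
  obtain ⟨l0, s0, n0, n1⟩ := g
  choose! φ h1 h2 using h
  have sur : ∀ m, T.σ m = m → ∃ l, T.σ l = l ∧ φ l = m := fun m hm => by
    obtain ⟨l, e⟩ := Finite.surjective_of_injective (f := fun l : T.κ => (⟨φ l, h1 l l.2⟩ : T.κ))
      (fun x y e => by
        have e' : φ x = φ y := congrArg Subtype.val e
        have hb : xb T 1 (map_one _) ∈ sA T := rfl
        have k := h2 x x.2 _ hb
        rw [e', ← h2 y y.2 _ hb] at k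
        have := congrArg Co.c (a.eq (ux_co _ hb).1 (ux_co _ hb).1 k)
        rw [(ux_co _ hb).2.2.1, (ux_co _ hb).2.2.1] at this
        exact Subtype.ext (mul_right_cancel₀ hc (by simpa [xb] using this))) ⟨m, hm⟩
    exact ⟨l, l.2, congrArg Subtype.val e⟩
  obtain ⟨γ, hγ⟩ : ∃ γ, c * T.σ γ + T.σ c * γ ≠ 0 := by
    obtain ⟨t, ht⟩ := exists_tr_ne (T := T) hc
    exact ⟨t, fun e => ht (by linear_combination e)⟩
  generalize eτ : c * T.σ γ + T.σ c * γ = τ at hγ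
  have sτ : T.σ τ = τ := by rw [← eτ, map_add, map_mul, map_mul, T.sq, T.sq, add_comm]
  have m1 : ∀ t, xc T t ∈ sA T := fun _ => rfl
  have hZ : Pr β (sZ T) := by
    by_cases b1 : (β (xc T γ)).b = 0
    · intro z hz
      have sl : T.σ (z.d / τ) = z.d / τ := by rw [map_div₀, sτ, A_d hz.1]
      obtain ⟨k1, k2, k3, k4⟩ := dl_co (z.d / τ * c) (m1 γ)
      have : z = dl (z.d / τ * c) (xc T γ) := eq_of_Z hz ⟨k1, k2, by rw [k3]; simp [xc]⟩ (by
        rw [k4, map_mul, sl, ← div_mul_cancel₀ z.d hγ, mul_div_cancel_right₀ _ hγ]; simp only [xc]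
        linear_combination -(z.d / τ) * eτ)
      rw [this, dl_map a (m1 γ) (h2 _ sl _ (m1 γ))]
      obtain ⟨k1, k2, k3, -⟩ := dl_co (φ (z.d / τ) * c') (a.mem _ (m1 γ))
      exact ⟨k1, k2, by rw [k3, b1, mul_zero]⟩
    exfalso
    generalize e1 : β (xc T γ) = v1 at b1
    generalize e2 : β (xc T (l0 * γ)) = v2
    have a1 : v1 ∈ sA T := e1 ▸ a.mem _ (m1 _)
    have a2 : v2 ∈ sA T := e2 ▸ a.mem _ (m1 _)
    have key : ∀ m, T.σ m = m → ∃ m', m * v1.b = m' * v2.b ∧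
        m * (c' * T.σ v1.c + T.σ c' * v1.c) + m ^ 2 * (c' * T.σ c') * v1.b =
          m' * (c' * T.σ v2.c + T.σ c' * v2.c) + m' ^ 2 * (c' * T.σ c') * v2.b := fun m hm => by
      obtain ⟨l, sl, rfl⟩ := sur m hm
      have sl' : T.σ (l / l0) = l / l0 := by rw [map_div₀, sl, s0]
      have : dl (l * c) (xc T γ) = dl (l / l0 * c) (xc T (l0 * γ)) := by
        obtain ⟨k1, k2, k3, k4⟩ := dl_co (l * c) (m1 γ)
        obtain ⟨j1, j2, j3, j4⟩ := dl_co (l / l0 * c) (m1 (l0 * γ))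
        refine Co.ext (k1.trans j1.symm) (k2.trans j2.symm) (by rw [k3, j3]; simp [xc]) ?_
        rw [k4, j4]
        simp only [xc, map_mul, sl, sl', s0]
        field_simp
        ring
      have k := congrArg β this
      rw [dl_map a (m1 _) (h2 _ sl _ (m1 _)), dl_map a (m1 _) (h2 _ sl' _ (m1 _)), e1, e2] at k
      have kc := congrArg Co.c k
      have kd := congrArg Co.d k
      rw [(dl_co _ a1).2.2.1, (dl_co _ a2).2.2.1] at kc
      rw [(dl_co _ a1).2.2.2, (dl_co _ a2).2.2.2, map_mul, map_mul, hm, h1 _ sl'] at kd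
      exact ⟨φ (l / l0), mul_left_cancel₀ hc' (by linear_combination kc), by linear_combination kd⟩
    generalize t1 : c' * T.σ v1.c + T.σ c' * v1.c = τ1 at key
    generalize t2 : c' * T.σ v2.c + T.σ c' * v2.c = τ2 at key
    have hN : c' * T.σ c' ≠ 0 := fun e => hc' (T.nm_zero e)
    generalize c' * T.σ c' = N at key hN
    obtain ⟨r, r1, r2⟩ := key 1 (map_one _)
    obtain ⟨r', r3, r4⟩ := key l0 s0
    have b2 : v2.b ≠ 0 := fun e => b1 (by simpa [e] using r1)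
    have r5 : r' = l0 * r := mul_right_cancel₀ b2 (by linear_combination l0 * r1 - r3)
    subst r5
    have r6 : l0 * ((l0 - 1) * (N * (v1.b * (1 - r)))) = 0 := by
      linear_combination r4 - l0 * r2 - (l0 ^ 2 - l0) * r * N * r1
    have r7 : r = 1 := by
      simp only [mul_eq_zero, n0, sub_eq_zero, n1, hN, b1, false_or] at r6
      exact r6.symm
    subst r7
    have hw : (xc T γ)⁻¹ * xc T (l0 * γ) ∈ sA T := mul_mem (inv_mem (m1 _)) (m1 _)
    have ew : β ((xc T γ)⁻¹ * xc T (l0 * γ)) = v1⁻¹ * v2 := by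
      rw [a.mul _ (inv_mem (m1 _)) _ (m1 _), a.inv (m1 _), e1, e2]
    obtain ⟨l, sl, el⟩ := sur 1 (map_one _)
    have k := h2 l sl _ hw
    have av : v1.a = 0 := a1
    rw [el, one_mul, ew, (fix_iff hc' (mul_mem (inv_mem a1) a2)).2 ⟨by
      simp only [Co.mul_b, Co.inv_b]; linear_combination -r1, by
      simp only [Co.mul_c, Co.inv_c, Co.inv_a, av, map_add, map_sub, map_mul, map_neg, map_zero]
      linear_combination t2 - t1 - r2 + N * r1⟩, ← ew] at k
    have l1 : l ≠ 0 := by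
      rintro rfl
      have j := h2 0 sl _ (a.sur _ (show xb T 1 (map_one _) ∈ sA T from rfl)).choose_spec.1
      rw [zero_mul, ux_zero, el, one_mul, Equiv.Perm.one_apply,
        (a.sur _ (show xb T 1 (map_one _) ∈ sA T from rfl)).choose_spec.2] at j
      simpa [xb] using ((fix_iff hc' rfl).1 j.symm).1
    have := ((fix_iff (mul_ne_zero l1 hc) hw).1 (a.eq (ux_co _ hw).1 hw k)).2
    simp only [Co.mul_c, Co.inv_c, Co.inv_a, xc, map_add, map_sub, map_mul, map_neg, map_zero, sl,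
      s0] at this
    have : l * ((l0 - 1) * τ) = 0 := by linear_combination this - l * (l0 - 1) * eτ
    simp [l1, sub_eq_zero, n1, hγ] at this
  obtain ⟨l, sl, el⟩ := sur 1 (map_one _)
  exact ⟨hZ, prD a hZ (t := l * c) hc' fun u hu => by rw [h2 l sl u hu, el, one_mul]⟩

theorem jobZX : JobZX.{v} := fun p _ K _ _ _ T _ g => zx g

theorem jobNM : JobNM.{v} := by
  rintro p hp K _ _ _ T h2 Y h c hc ⟨α, hα, e, n⟩
  have a := h.lg.au α hα
  have e' : ∀ u, α (ux T c u) = ux T c (α u) := fun u => congrArg (fun f : Equiv.Perm _ => f u) e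
  refine n ?_
  by_cases t2 : (2 : K) = 0
  swap
  · have hN : c * T.σ c ≠ 0 := fun e => hc (T.nm_zero e)
    have dd : ∀ u ∈ sA T, dl c (dl c u) ∈ sZ T ∧ (dl c (dl c u)).d = 2 * (c * T.σ c) * u.b :=
      fun u hu => by
        obtain ⟨k1, k2, k3, -⟩ := dl_co c hu
        obtain ⟨j1, j2, j3, j4⟩ := dl_co c (u := dl c u) k1
        exact ⟨⟨j1, j2, by rw [j3, k2, mul_zero]⟩, by rw [j4, k2, k3, map_mul, u.hb]; ring⟩
    have hZ : Pr α (sZ T) := fun z hz => by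
      have s : T.σ (z.d / (2 * (c * T.σ c))) = z.d / (2 * (c * T.σ c)) := by
        rw [map_div₀, A_d hz.1, map_mul, map_mul, T.sq, map_ofNat, mul_comm (T.σ c)]
      have hb : xb T _ s ∈ sA T := rfl
      have : z = dl c (dl c (xb T _ s)) := eq_of_Z hz (dd _ hb).1 (by
        rw [(dd _ hb).2]; exact (mul_div_cancel₀ _ (mul_ne_zero t2 hN)).symm)
      rw [this, dl_map a (dl_co c hb).1 (e' _), dl_map a hb (e' _)]
      exact (dd _ (a.mem _ hb)).1
    exact ⟨hZ, prD a hZ hc fun u _ => e' u⟩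
  obtain ⟨g2, zx⟩ := h2 t2
  obtain rfl : p = 2 := (Nat.prime_dvd_prime_iff_eq hp.out Nat.prime_two).1
    ((CharP.cast_eq_zero_iff K p 2).1 (by simpa using t2))
  let V : Subgroup (Co T) :=
    { carrier := {u | u ∈ sA T ∧ ux T c u = u}
      one_mem' := ⟨one_mem _, ux_Z c (one_mem _)⟩
      mul_mem' := fun {x y} hx hy => ⟨mul_mem hx.1 hy.1, by
        rw [(h.lg.au _ (h.ux_mem c)).mul _ hx.1 _ hy.1, hx.2, hy.2]⟩
      inv_mem' := fun {x} hx => ⟨inv_mem hx.1, by rw [(h.lg.au _ (h.ux_mem c)).inv hx.1, hx.2]⟩ }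
  have mV : ∀ u, u ∈ V ↔ u ∈ sA T ∧ ux T c u = u := fun _ => Iff.rfl
  let P : Subgroup (Equiv.Perm (Co T)) :=
    { carrier := {β | β ∈ Y ∧ (∀ v ∈ V, β v = v) ∧ ∀ u ∈ sA T, u⁻¹ * β u ∈ V}
      one_mem' := ⟨one_mem _, fun _ _ => rfl, fun u _ => by simp [one_mem]⟩
      mul_mem' := fun {x y} hx hy => ⟨mul_mem hx.1 hy.1, fun v hv => by
        rw [Equiv.Perm.mul_apply, hy.2.1 v hv, hx.2.1 v hv], fun u hu => by
        have := mul_mem (hy.2.2 u hu) (hx.2.2 _ ((h.lg.au _ hy.1).mem u hu))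
        simpa [mul_assoc] using this⟩
      inv_mem' := fun {x} hx => ⟨inv_mem hx.1, fun v hv => by
        rw [Equiv.Perm.inv_eq_iff_eq, hx.2.1 v hv], fun u hu => by
        have := inv_mem (hx.2.2 _ ((h.lg.au _ (inv_mem hx.1)).mem u hu))
        simpa using this⟩ }
  have mP : ∀ β, β ∈ P ↔ β ∈ Y ∧ (∀ v ∈ V, β v = v) ∧ ∀ u ∈ sA T, u⁻¹ * β u ∈ V := fun _ => Iff.rfl
  have nP : ∀ γ ∈ Y, γ * ux T c = ux T c * γ → ∀ β ∈ P, γ * β * γ⁻¹ ∈ P := fun γ hγ eγ β hβ => by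
    have aγ := h.lg.au _ hγ
    have aγ' := h.lg.au _ (inv_mem hγ)
    have f : ∀ u, γ (ux T c u) = ux T c (γ u) := fun u => congrArg (fun f : Equiv.Perm _ => f u) eγ
    refine ⟨mul_mem (mul_mem hγ hβ.1) (inv_mem hγ), fun v hv => ?_, fun u hu => ?_⟩
    · have : γ⁻¹ v ∈ V := ⟨aγ'.mem v hv.1, γ.injective (by rw [f]; simpa using hv.2)⟩
      simp only [Equiv.Perm.mul_apply, hβ.2.1 _ this]
      simp
    · have k := hβ.2.2 _ (aγ'.mem u hu)
      have : γ ((γ⁻¹ u)⁻¹ * β (γ⁻¹ u)) ∈ V := ⟨aγ.mem _ k.1, by rw [← f, k.2]⟩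
      rw [aγ.mul _ (inv_mem (aγ'.mem u hu)) _ ((h.lg.au _ hβ.1).mem _ (aγ'.mem u hu)),
        aγ.inv (aγ'.mem u hu)] at this
      simpa using this
  have p2 : IsPGroup 2 P := isPGroup_iff_forall.2 fun β hβ => ⟨1, h.lg.ext
    (pow_mem hβ.1 _) (one_mem _) fun u hu => by
      have k := hβ.2.2 u hu
      have k2 := pow_p_A 2 k.1
      have : β (β u) = β (u * (u⁻¹ * β u)) := by rw [mul_inv_cancel_left]
      rw [(h.lg.au _ hβ.1).mul _ hu _ k.1, hβ.2.1 _ k] at this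
      rw [pow_one, sq, Equiv.Perm.mul_apply, this, Equiv.Perm.one_apply]
      rw [sq] at k2
      calc _ = u * ((u⁻¹ * β u) * (u⁻¹ * β u)) := by group
        _ = u := by rw [k2, mul_one]⟩
  have le : P ≤ (iS (sA T)).range := by
    have : Finite (Equiv.Perm (Co T)) := inferInstance
    refine le_sup_right.trans (h.syl.2.2 (_ ⊔ P) le_sup_left (sup_le h.syl.1 fun β hβ => hβ.1)
      (h.syl.2.1.to_sup_of_normal_right' p2 fun γ hγ => mem_normalizer_fintype fun β hβ => ?_)).le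
    obtain ⟨t, rfl⟩ := mem_U.1 hγ
    exact nP _ (h.ux_mem t) (ux_comm t c) β hβ
  refine zx α a c c hc hc fun l sl => ?_
  have : ux T (l * c) ∈ P := ⟨h.ux_mem _, fun v hv => by
      obtain ⟨k1, k2⟩ := (fix_iff hc hv.1).1 hv.2
      obtain ⟨j1, j2, j3, j4⟩ := ux_co (l * c) hv.1
      refine Co.ext (j1.trans hv.1.symm) j2 (by rw [j3, k1]; ring) ?_
      rw [j4, k1, map_mul, sl]
      linear_combination l * k2, fun u hu => by
      obtain ⟨j1, j2, j3, -⟩ := dl_co (l * c) hu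
      refine ⟨j1, (fix_iff hc j1).2 ⟨j2, ?_⟩⟩
      change c * T.σ (dl (l * c) u).c + T.σ c * (dl (l * c) u).c = 0
      rw [j3, map_mul, map_mul, sl, u.hb]
      linear_combination l * u.b * c * T.σ c * t2⟩
  have k := nP α hα e _ this
  obtain ⟨t, ht⟩ := mem_U.1 (le k)
  have hv : xc T c ∈ V := ⟨rfl, (fix_iff hc rfl).2 ⟨rfl, by
    simp only [xc]; linear_combination c * T.σ c * t2⟩⟩
  have j := congrArg Co.d (k.2.1 _ hv)
  rw [ht, (ux_co t hv.1).2.2.2] at j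
  obtain ⟨l', hl⟩ := T.exists_mul (x := t) hc (by
    simp only [xc] at j
    linear_combination j - T.σ t * c * t2)
  refine ⟨l', l'.2, fun u _ => ?_⟩
  rw [← hl, ← ht]
  simp

end H95.U4Z
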