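import Cfsg.Agent.H53.SimXASpec

/-! Tower SIM, chapter XA: slot RK (ranks of idempotents). -/

set_option autoImplicit false

namespace H95.SimRK

open Matrix H0.Sim

variable {n : ℕ} {F : Type} [Field F]

theorem rank_add {e f : Mt n F} (he : e * e = e) (hf : f * f = f) (h1 : e * f = 0)
    (h2 : f * e = 0) : (e + f).rank = e.rank + f.rank := by
  have hs : LinearMap.range (e + f).mulVecLin =
      LinearMap.range e.mulVecLin ⊔ LinearMap.range f.mulVecLin := by
    apply le_antisymm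
    · rintro _ ⟨x, rfl⟩
      rw [mulVecLin_apply, add_mulVec]
      exact Submodule.add_mem_sup ⟨x, rfl⟩ ⟨x, rfl⟩
    · refine sup_le ?_ ?_
      · rintro _ ⟨x, rfl⟩
        exact ⟨e *ᵥ x, by
          rw [mulVecLin_apply, mulVecLin_apply, mulVec_mulVec, add_mul, he, h2, add_zero]⟩
      · rintro _ ⟨x, rfl⟩
        exact ⟨f *ᵥ x, by
          rw [mulVecLin_apply, mulVecLin_apply, mulVec_mulVec, add_mul, hf, h1, zero_add]⟩
  have hi : LinearMap.range e.mulVecLin ⊓ LinearMap.range f.mulVecLin = ⊥ := by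
    rw [eq_bot_iff]
    rintro v ⟨⟨x, hx⟩, ⟨y, hy⟩⟩
    rw [mulVecLin_apply] at hx hy
    rw [Submodule.mem_bot]
    calc v = e *ᵥ (e *ᵥ x) := by rw [mulVec_mulVec, he, hx]
      _ = e *ᵥ (f *ᵥ y) := by rw [hx, hy]
      _ = 0 := by rw [mulVec_mulVec, h1, zero_mulVec]
  have h := Submodule.finrank_sup_add_finrank_inf_eq (LinearMap.range e.mulVecLin)
    (LinearMap.range f.mulVecLin)
  rw [hi, finrank_bot, add_zero, ← hs] at h
  exact h

theorem eq_of_mulVec {a b : Mt n F} (h : ∀ x, a *ᵥ x = b *ᵥ x) : a = b := by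
  ext i j
  have := congrFun (h (Pi.single j 1)) i
  simpa using this

theorem eq_zero {f : Mt n F} (h : f.rank = 0) : f = 0 := by
  have h1 : LinearMap.range f.mulVecLin = ⊥ := Submodule.finrank_eq_zero.1 h
  refine eq_of_mulVec fun x => ?_
  rw [zero_mulVec]
  exact (Submodule.mem_bot F).1 (h1.le ⟨x, rfl⟩)

theorem rank_sum (𝒮 : Finset (Mt n F)) (h1 : ∀ f ∈ 𝒮, f * f = f)
    (h2 : ∀ f ∈ 𝒮, ∀ f' ∈ 𝒮, f ≠ f' → f * f' = 0) : (∑ f ∈ 𝒮, f).rank = ∑ f ∈ 𝒮, f.rank := by
  classical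
  induction 𝒮 using Finset.induction_on with
  | empty => simp
  | insert a s ha ih =>
    have m : ∀ {f}, f ∈ s → f ∈ insert a s := Finset.mem_insert_of_mem
    have ma : a ∈ insert a s := Finset.mem_insert_self a s
    have ne : ∀ f ∈ s, a ≠ f := fun f hf e => ha (e ▸ hf)
    rw [Finset.sum_insert ha, Finset.sum_insert ha, rank_add (h1 a ma),
      ih (fun f hf => h1 f (m hf)) fun f hf f' hf' => h2 f (m hf) f' (m hf')]
    · rw [Finset.sum_mul]
      refine Finset.sum_congr rfl fun f hf => ?_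
      rw [Finset.mul_sum, Finset.sum_eq_single f (fun g hg e => h2 f (m hf) g (m hg) e.symm)
        fun h => absurd hf h]
      exact h1 f (m hf)
    · rw [Finset.mul_sum]
      exact Finset.sum_eq_zero fun f hf => h2 a ma f (m hf) (ne f hf)
    · rw [Finset.sum_mul]
      exact Finset.sum_eq_zero fun f hf => h2 f (m hf) a ma (ne f hf).symm

theorem job : H53.XA.RK := by
  intro n F _
  refine ⟨fun e f => rank_add, rank_sum, fun e f he hf h1 h2 h => ?_, fun f => eq_zero,
    fun f hf h m => ?_⟩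
  · have k := rank_add (e := e) (f := f - e) he
      (by rw [mul_sub, sub_mul, sub_mul, hf, h1, h2, he, sub_self, sub_zero])
      (by rw [mul_sub, h1, he, sub_self]) (by rw [sub_mul, h2, he, sub_self])
    rw [add_sub_cancel, h] at k
    exact (sub_eq_zero.1 (eq_zero (by omega))).symm
  · obtain ⟨⟨v, hv⟩, -, hall⟩ := finrank_eq_one_iff'.1
      (h : Module.finrank F (LinearMap.range f.mulVecLin) = 1)
    obtain ⟨c, hc⟩ := hall ⟨f *ᵥ (m *ᵥ v), _, rfl⟩
    refine ⟨c, eq_of_mulVec fun x => ?_⟩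
    obtain ⟨a, ha⟩ := hall ⟨f *ᵥ x, _, rfl⟩
    have hc' : c • v = f *ᵥ (m *ᵥ v) := congrArg Subtype.val hc
    have ha' : a • v = f *ᵥ x := congrArg Subtype.val ha
    rw [← mulVec_mulVec, ← mulVec_mulVec, smul_mulVec, ← ha', mulVec_smul, mulVec_smul, ← hc',
      smul_comm]

end H95.SimRK
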