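/- Ore tower, characteristic two: diagonal pairs on two free cyclic unipotent modules. -/
import Cfsg.Agent.H93.OrS

set_option autoImplicit false
set_option linter.unusedSectionVars false

namespace H95.OE
open H56 H60 H93.O2 H93.FS H93.Or QuadraticMap Module Polynomial

universe u

variable {F V : Type*} [Field F] [AddCommGroup V] [Module F V] {Q : QuadraticForm F V}
  [CharP F 2] [Module F[X] V] [IsScalarTower F F[X] V] {g : O Q} {W : Submodule F V}
  {u u' v x w x₀ x₁ w₀ w₁ : V} {i j k n : ℕ}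

variable (F) in
/-- the multiples of `u` -/
noncomputable def cx (u : V) : Submodule F V :=
  LinearMap.range ((LinearMap.toSpanSingleton F[X] V u).restrictScalars F)

variable (F) in
/-- the annihilator of `u` is generated by `X ^ j` -/
def An (u : V) (j : ℕ) : Prop := ∀ p : F[X], p • u = 0 ↔ X ^ j ∣ p

theorem An.fr (h : An F u j) : finrank F (cx F u) = j := by
  have : LinearMap.ker ((LinearMap.toSpanSingleton F[X] V u).restrictScalars F) =
      (Ideal.span {(X ^ j : F[X])}).restrictScalars F :=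
    Submodule.ext fun p => (h p).trans Ideal.mem_span_singleton.symm
  rw [cx, ← (LinearMap.quotKerEquivRange _).finrank_eq, this,
    (Submodule.Quotient.restrictScalarsEquiv F _).finrank_eq]
  exact (AdjoinRoot.powerBasis' (monic_X_pow (R := F) j)).finrank.trans (natDegree_X_pow j)

theorem An.of (h0 : (X ^ (k + 1) : F[X]) • u = 0) (h1 : (X ^ k : F[X]) • u ≠ 0) : An F u (k + 1) :=
  fun p => ⟨pow_dvd_of_mem prime_X (I := LinearMap.ker (LinearMap.toSpanSingleton F[X] V u)) h0 h1,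
    fun ⟨q, e⟩ => by rw [e, mul_comm, mul_smul, h0, smul_zero]⟩

theorem An.mulX (h : An F u (k + 1)) : An F ((X : F[X]) • u) k := fun p => by
  rw [← mul_smul, h, pow_succ, mul_dvd_mul_iff_right X_ne_zero]

/-- the sum of two cyclic modules -/
noncomputable abbrev W2 (g : O Q) (x w : V) : Submodule F V :=
  LinearMap.range (cy g x) ⊔ LinearMap.range (cy g w)

theorem mem_W2 : v ∈ W2 g x w ↔ ∃ a b c d : F[X], v = a • x + b • g x + (c • w + d • g w) := by
  refine ⟨fun h => ?_, fun ⟨a, b, c, d, e⟩ => e ▸ Submodule.add_mem_sup (mem_cy x a b) (mem_cy w c d)⟩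
  obtain ⟨_, ⟨⟨a, b⟩, rfl⟩, _, ⟨⟨c, d⟩, rfl⟩, rfl⟩ := Submodule.mem_sup.1 h
  exact ⟨a, b, c, d, rfl⟩

/-- an involution of a cyclic module: `v ↦ v₀`, `g v ↦ v₁`, moving the multiples of `u` -/
structure Bl (g : O Q) (v v₀ v₁ u : V) : Prop where
  inv : ∀ a b : F[X], ∃ a' b' : F[X], a • v₀ + b • v₁ = a' • v + b' • g v ∧
    a' • v₀ + b' • v₁ = a • v + b • g v
  q : ∀ a b : F[X], Q (a • v₀ + b • v₁) = Q (a • v + b • g v)
  m : ∃ p q a b : F[X], v₀ - v = p • u ∧ v₁ - g v = q • u ∧ u = a • (v₀ - v) + b • (v₁ - g v)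

include F in
theorem sub2 (a b : V) : a - b = a + b := by
  rw [sub_eq_iff_eq_add, add_assoc, vadd_self (F := F), add_zero]

variable (hX : ∀ v, (X : F[X]) • v = g v + g⁻¹ v)
include hX

theorem gi (v : V) : g⁻¹ v = (X : F[X]) • v + g v := by
  rw [hX, add_right_comm, vadd_self (F := F), zero_add]

theorem i_comm (p : F[X]) (v : V) : g⁻¹ (p • v) = p • g⁻¹ v := by
  rw [O.inv_apply_eq, s_comm hX, O.apply_inv_apply]

theorem e1 (p : F[X]) (u : V) : Q (p • g u) = Q (p • u) := by rw [← s_comm hX, O.map_Q]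

theorem e2 (p : F[X]) (u v : V) : polar Q (p • g u) (g v) = polar Q (p • u) v := by
  rw [← s_comm hX, O.map_polar]

theorem e3 (p : F[X]) (u : V) : polar Q (p • u) (g u) = polar Q (p • g u) u := by
  rw [s_adj hX, polar_comm]

theorem bl_g (v : V) : Bl g v (g v) v (g v + v) :=
  ⟨fun a b => ⟨b, a, add_comm _ _, add_comm _ _⟩,
    fun a b => by simp only [Q_add, s_nf hX, e1 hX, e3 hX],
    1, 1, 1, 0, by rw [one_smul, sub2 (F := F)], by rw [one_smul, sub2 (F := F), add_comm],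
    by rw [one_smul, zero_smul, add_zero, sub2 (F := F)]⟩

theorem bl_1 (v : V) : Bl g v v (g⁻¹ v) ((X : F[X]) • v) := by
  refine ⟨fun a b => ⟨a + b * X, b, by rw [gi hX]; module, by
      rw [gi hX]; linear_combination (norm := module) (b * (X : F[X])) • two_sm (F := F) v⟩,
    fun a b => ?_, 0, 1, 0, 1, by simp, by rw [gi hX]; module, by rw [gi hX]; module⟩
  have h := e3 hX (b * a) v
  rw [← O.map_Q g (a • v + b • g⁻¹ v), map_add, s_comm hX, s_comm hX, O.apply_inv_apply]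
  exact (bl_g hX v).q a b

theorem bl_i (v : V) : Bl g v (g⁻¹ v) (g⁻¹ (g⁻¹ v)) (g⁻¹ v + v) := by
  have h : g⁻¹ (g⁻¹ v) = (X * X + 1 : F[X]) • v + (X : F[X]) • g v := by
    rw [gi hX (g⁻¹ v), O.apply_inv_apply, gi hX]; module
  refine ⟨fun a b => ⟨a * X + b * (X * X + 1), a + b * X, by rw [h, gi hX]; module, ?_⟩,
    fun a b => ?_, 1, X + 1, 1, 0, by rw [one_smul, sub2 (F := F)], ?_,
    by rw [one_smul, zero_smul, add_zero, sub2 (F := F)]⟩
  · rw [h, gi hX]
    linear_combination (norm := module) (a * X * X + b * X * X * X + b * X : F[X]) • two_sm (F := F) v +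
      (a * X + b * X * X : F[X]) • two_sm (F := F) (g v)
  · rw [← O.map_Q g, map_add, s_comm hX, s_comm hX, O.apply_inv_apply, O.apply_inv_apply]
    exact (bl_1 hX v).q a b
  · rw [h, gi hX]
    linear_combination (norm := module) -(X : F[X]) • two_sm (F := F) v - two_sm (F := F) (g v)

variable [FiniteDimensional F V]

theorem smul_mem (hW : ∀ x ∈ W, g x ∈ W) (p : F[X]) : ∀ v ∈ W, p • v ∈ W := by
  induction p using pind with
  | h1 a => exact fun v hv => C_sm a v ▸ W.smul_mem a hv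
  | h2 p q hp hq => exact fun v hv => add_smul p q v ▸ W.add_mem (hp v hv) (hq v hv)
  | h3 p hp => exact fun v hv => mul_smul p X v ▸ hp _ (hX v ▸ W.add_mem (hW v hv)
      (inv_apply_mem_of_sstab (mem_sstab_of_le hW) hv))

theorem cy_le (hW : ∀ x ∈ W, g x ∈ W) (hx : x ∈ W) : LinearMap.range (cy g x) ≤ W := by
  rintro _ ⟨⟨a, b⟩, rfl⟩
  exact W.add_mem (smul_mem hX hW a _ hx) (smul_mem hX hW b _ (hW _ hx))

theorem W2_inv : ∀ y ∈ W2 g x w, g y ∈ W2 g x w := fun y hy => by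
  obtain ⟨a, ha, b, hb, rfl⟩ := Submodule.mem_sup.1 hy
  rw [map_add]
  exact Submodule.add_mem_sup (cy_inv hX x a ha) (cy_inv hX w b hb)

theorem free' {y : V} (hW : ∀ x ∈ W, g x ∈ W) (hn : ∀ v ∈ W, ((g.lin + 1) ^ (n + 1)) v = 0)
    (hB : ∀ v ∈ W, polar Q (((g.lin + 1) ^ n) v) v = 0) (hx : x ∈ W) (hy : y ∈ W)
    (hxy : polar Q (((g.lin + 1) ^ n) x) y ≠ 0)
    (hu : u ∈ LinearMap.range (cy g x)) (hv : v ∈ LinearMap.range (cy g y))
    (h : u + v ∈ perp Q (W2 g x y)) : u = 0 ∧ v = 0 := by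
  have hp : ∀ i : ℕ, ((g.lin + 1) ^ i) (u + v) ∈ perp Q (W2 g x y) := fun i => by
    induction i with
    | zero => exact h
    | succ i ih => rw [pow_succ']; exact add_mem (perp_inv (W2_inv hX) _ ih) ih
  have hyx : polar Q (((g.lin + 1) ^ n) y) x = polar Q (((g.lin + 1) ^ n) x) y := by
    have := hB (x + y) (W.add_mem hx hy)
    simp only [map_add, polar_add_left, polar_add_right, hB x hx, hB y hy, zero_add, add_zero] at this
    exact CharTwo.add_eq_zero.1 this
  have k : ∀ j ≤ n + 1, ∃ a ∈ LinearMap.range (cy g x), ∃ b ∈ LinearMap.range (cy g y),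
      u = ((g.lin + 1) ^ j) a ∧ v = ((g.lin + 1) ^ j) b := fun j => by
    induction j with
    | zero => exact fun _ => ⟨u, hu, v, hv, rfl, rfl⟩
    | succ j ih =>
      intro hj
      obtain ⟨a, ha, b, hb, rfl, rfl⟩ := ih (by omega)
      obtain ⟨c, a, ha', rfl⟩ := cy_dec hX ha
      obtain ⟨d, b, hb', rfl⟩ := cy_dec hX hb
      have a1 := hp (n - j)
      have a2 : ∀ w ∈ W, ((g.lin + 1) ^ n) ((g.lin + 1) w) = 0 := fun w hw => by
        rw [← hn w hw, pow_succ]; rfl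
      rw [← map_add, ← Module.End.mul_apply, ← pow_add, Nat.sub_add_cancel (by omega),
        mem_perp'] at a1
      have a3 := a1 y (Submodule.mem_sup_right (self_mem_cy y))
      have a4 := a1 x (Submodule.mem_sup_left (self_mem_cy x))
      simp only [map_add, map_smul, a2 a (cy_le hX hW hx ha'), a2 b (cy_le hX hW hy hb'), add_zero,
        polar_add_left, polar_smul_left, hB x hx, hB y hy, hyx, smul_eq_mul,
        mul_zero, zero_add, mul_eq_zero, hxy, or_false] at a3 a4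
      exact ⟨a, ha', b, hb', by rw [a3, zero_smul, zero_add, pow_succ]; rfl, by
        rw [a4, zero_smul, zero_add, pow_succ]; rfl⟩
  obtain ⟨a, ha, b, hb, rfl, rfl⟩ := k _ le_rfl
  exact ⟨hn a (cy_le hX hW hx ha), hn b (cy_le hX hW hy hb)⟩

variable (hQ : Q.polarBilin.Nondegenerate)
include hQ

omit hX in
theorem sep {U : Submodule F V} (hW : Nondeg Q W) (hU : U ≤ W) (hv : v ∈ W) (h : v ∉ U) :
    ∃ w ∈ W, (∀ u ∈ U, polar Q u w = 0) ∧ polar Q v w ≠ 0 := by
  rw [← perp_perp hQ U, mem_perp'] at h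
  push Not at h
  obtain ⟨y, hy, e⟩ := h
  obtain ⟨a, ha, b, hb, rfl⟩ := hW.exists_decomp hQ y
  refine ⟨a, ha, fun u hu => ?_, by rwa [polar_add_right, mem_perp.1 hb v hv, add_zero] at e⟩
  have := mem_perp.1 hy u hu
  rwa [polar_add_right, mem_perp.1 hb u (hU hu), add_zero] at this

theorem mk (hf : ∀ u ∈ LinearMap.range (cy g x), ∀ v ∈ LinearMap.range (cy g w),
      u + v ∈ perp Q (W2 g x w) → u = 0 ∧ v = 0) (b1 : Bl g x x₀ x₁ u) (b2 : Bl g w w₀ w₁ u')
    (c : ∀ p : F[X], polar Q (p • x₀) w₀ = polar Q (p • x) w ∧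
      polar Q (p • x₀) w₁ = polar Q (p • x) (g w) ∧ polar Q (p • x₁) w₀ = polar Q (p • g x) w ∧
      polar Q (p • x₁) w₁ = polar Q (p • x) w) (a1 : An F u i) (a2 : An F u' j) :
    Nondeg Q (W2 g x w) ∧ ∃ r : O Q, r * r = 1 ∧ r.mov ≤ W2 g x w ∧ r.rk = i + j ∧
      r.mov = cx F u ⊔ cx F u' ∧ ∀ a b c d : F[X],
      r (a • x + b • g x + (c • w + d • g w)) = a • x₀ + b • x₁ + (c • w₀ + d • w₁) := by
  have hW : Nondeg Q (W2 g x w) := fun y hy h => by
    obtain ⟨a, ha, b, hb, rfl⟩ := Submodule.mem_sup.1 hy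
    obtain ⟨rfl, rfl⟩ := hf a ha b hb h
    exact add_zero _
  have m : ∀ a b c d : F[X], a • x₀ + b • x₁ + (c • w₀ + d • w₁) ∈ W2 g x w := fun a b c d => by
    obtain ⟨a', b', e, -⟩ := b1.inv a b
    obtain ⟨c', d', e', -⟩ := b2.inv c d
    exact mem_W2.2 ⟨a', b', c', d', by rw [e, e']⟩
  let T : V → V → (F[X] × F[X] →ₗ[F] V) := fun s t =>
    ((LinearMap.toSpanSingleton F[X] V s).restrictScalars F).coprod
      ((LinearMap.toSpanSingleton F[X] V t).restrictScalars F)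
  obtain ⟨r, hr⟩ := exists_O_of_surj hQ
    (((cy g x).coprod (cy g w)).coprod (perp Q (W2 g x w)).subtype)
    (((T x₀ x₁).coprod (T w₀ w₁)).coprod (perp Q (W2 g x w)).subtype)
    (by rw [LinearMap.range_coprod, LinearMap.range_coprod, Submodule.range_subtype]
        exact (hW.isCompl hQ).sup_eq_top) fun ⟨⟨⟨a, b⟩, c', d⟩, z⟩ => by
      change Q (a • x₀ + b • x₁ + (c' • w₀ + d • w₁) + z) =
        Q (a • x + b • g x + (c' • w + d • g w) + z)
      rw [Q_add (y := (z : V)), Q_add (y := (z : V)), mem_perp.1 z.2 _ (m a b c' d),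
        mem_perp.1 z.2 _ (mem_W2.2 ⟨a, b, c', d, rfl⟩), Q_add (x := _ + _), Q_add (x := _ + _),
        b1.q, b2.q]
      simp only [polar_add_left, polar_add_right, s_nf hX, c, e2 hX]
  replace hr : ∀ (a b c d : F[X]), ∀ z ∈ perp Q (W2 g x w), r (a • x + b • g x + (c • w + d • g w) + z) =
      a • x₀ + b • x₁ + (c • w₀ + d • w₁) + z := fun a b c d z hz => hr (((a, b), c, d), ⟨z, hz⟩)
  have k : ∀ y, ∃ a b c d : F[X], ∃ z ∈ perp Q (W2 g x w),
      y = a • x + b • g x + (c • w + d • g w) + z := fun y => by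
    obtain ⟨s, hs, z, hz, rfl⟩ := hW.exists_decomp hQ y
    obtain ⟨a, b, c, d, rfl⟩ := mem_W2.1 hs
    exact ⟨a, b, c, d, z, hz, rfl⟩
  obtain ⟨p, q, α, β, p1, p2, p3⟩ := b1.m
  obtain ⟨p', q', α', β', q1, q2, q3⟩ := b2.m
  have hm : r.mov = cx F u ⊔ cx F u' := by
    refine le_antisymm (fun y hy => ?_) (sup_le ?_ ?_)
    · obtain ⟨y, rfl⟩ := O.mem_mov.1 hy
      obtain ⟨a, b, c, d, z, hz, rfl⟩ := k y
      refine Submodule.mem_sup.2 ⟨_, ⟨a * p + b * q, rfl⟩, _, ⟨c * p' + d * q', rfl⟩, ?_⟩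
      rw [hr _ _ _ _ _ hz]
      change (a * p + b * q) • u + (c * p' + d * q') • u' = _
      linear_combination (norm := module) -a • p1 - b • p2 - c • q1 - d • q2
    · rintro _ ⟨s, rfl⟩
      refine O.mem_mov.2 ⟨_, (congrArg (· - _) (hr (s * α) (s * β) 0 0 0 (zero_mem _))).trans ?_⟩
      change _ = s • u
      rw [p3]; module
    · rintro _ ⟨s, rfl⟩
      refine O.mem_mov.2 ⟨_, (congrArg (· - _) (hr 0 0 (s * α') (s * β') 0 (zero_mem _))).trans ?_⟩
      change _ = s • u'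
      rw [q3]; module
  have l : ∀ {v v₀ v₁ u : V}, Bl g v v₀ v₁ u → cx F u ≤ LinearMap.range (cy g v) := fun {v _ _ u} h => by
    rintro _ ⟨s, rfl⟩
    obtain ⟨p, q, α, β, -, -, p3⟩ := h.m
    obtain ⟨a, b, e, -⟩ := h.inv (s * α) (s * β)
    refine ⟨(a - s * α, b - s * β), ?_⟩
    change (a - s * α) • v + (b - s * β) • g v = s • u
    rw [p3]
    linear_combination (norm := module) -e
  refine ⟨hW, r, O.ext fun y => ?_, hm ▸ sup_le_sup (l b1) (l b2), ?_, hm, fun a b c d => by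
    simpa using hr a b c d 0 (zero_mem _)⟩
  · obtain ⟨a, b, c, d, z, hz, rfl⟩ := k y
    obtain ⟨a', b', e, e'⟩ := b1.inv a b
    obtain ⟨c', d', f, f'⟩ := b2.inv c d
    rw [O.mul_apply, hr _ _ _ _ _ hz, e, f, hr _ _ _ _ _ hz, e', f', O.one_apply]
  · have : cx F u ⊓ cx F u' = ⊥ := eq_bot_iff.2 fun y hy =>
      (hf y (l b1 hy.1) y (l b2 hy.2) (by rw [vadd_self (F := F)]; exact zero_mem _)).1
    have e := Submodule.finrank_sup_add_finrank_inf_eq (cx F u) (cx F u')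
    rwa [this, finrank_bot, add_zero, a1.fr, a2.fr, ← hm] at e

omit hQ in
theorem an_gi (h : An F u j) : An F (g⁻¹ u) j := fun p => by
  rw [← i_comm hX, ← h p, O.inv_apply_eq, map_zero]

omit hQ in
theorem nn (p : F[X]) (v : V) (h : p • (g v + v) = 0) : p • (X : F[X]) • v = 0 := by
  apply g.injective
  have := congrArg (fun y => g y + y) h
  simp only [s_comm hX, map_add, g_g hX, map_zero, add_zero] at this ⊢
  linear_combination (norm := module) this - p • two_sm (F := F) v - p • two_sm (F := F) (g v)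

omit hQ in
theorem n_even (j : ℕ) : ∀ v, ((g.lin + 1) ^ (2 * j)) v = (g ^ j) ((X ^ j : F[X]) • v) := by
  have hN : ∀ v, (g.lin + 1) v = g v + v := fun _ => rfl
  have hNN : ∀ v, (g.lin + 1) ((g.lin + 1) v) = (X : F[X]) • g v := fun v => by
    rw [hN, hN, map_add, g_g hX]
    linear_combination (norm := module) two_sm (F := F) v + two_sm (F := F) (g v)
  induction j with
  | zero => simp
  | succ j ih => intro v; rw [mul_add, pow_add, Module.End.mul_apply, mul_one, pow_two,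
      Module.End.mul_apply, hNN, ih, pow_succ g, O.mul_apply, s_comm hX, ← mul_smul, pow_succ]

omit hX hQ in
theorem pow_fix (k : ℕ) (h : g w = w) : (g ^ k) w = w :=
  pow_mem (show g ∈ MulAction.stabilizer (O Q) w from h) k

/-- the conclusion -/
def Con (g : O Q) (W : Submodule F V) : Prop :=
  ∃ W' ≤ W, IN g W' ∧ ∃ (s t : O Q) (e : V), Pr g W' s t ∧ e ∈ s.mov ∧ Q e = 0 ∧ t e = e ∧
    (∃ y ∈ W', t y = y ∧ polar Q y e ≠ 0) ∧
    (s.rk = t.rk ∨ (s.rk = t.rk + 2 ∧ ∃ y ∈ W', polar Q y (s y) ≠ polar Q y e ^ 2))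

theorem ev (hW : IN g W) (hn : ∀ v ∈ W, ((g.lin + 1) ^ (2 * (k + 1) + 1)) v = 0)
    (hB : ∀ v ∈ W, polar Q (((g.lin + 1) ^ (2 * (k + 1))) v) v = 0) (hx : x ∈ W)
    (x0 : ((g.lin + 1) ^ (2 * (k + 1))) x ≠ 0) : Con g W := by
  have h0 : ∀ v ∈ W, (X ^ (k + 1) : F[X]) • (g v + v) = 0 := fun v hv => (g ^ (k + 1)).injective (by
    rw [← n_even hX, map_zero, ← hn v hv, pow_succ _ (2 * _)]; rfl)
  have h1 : ∀ v ∈ W, g ((X ^ (k + 1) : F[X]) • v) = (X ^ (k + 1) : F[X]) • v := fun v hv => by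
    rw [s_comm hX, ← sub_eq_zero, sub2 (F := F), ← smul_add, h0 v hv]
  have hT : ∀ v ∈ W, ((g.lin + 1) ^ (2 * (k + 1))) v = (X ^ (k + 1) : F[X]) • v := fun v hv => by
    rw [n_even hX, pow_fix _ (h1 v hv)]
  have A : ∀ v ∈ W, (X ^ (k + 1) : F[X]) • v ≠ 0 →
      An F ((X : F[X]) • v) (k + 1) ∧ An F (g v + v) (k + 1) := fun v hv e => by
    have := (An.of (by rw [pow_succ, mul_smul]; exact nn hX _ _ (h0 v hv)) e).mulX
    exact ⟨this, fun p => ⟨fun h => (this p).1 (nn hX p v h), fun ⟨q, e⟩ => by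
      rw [e, mul_comm, mul_smul, h0 v hv, smul_zero]⟩⟩
  rw [hT x hx] at x0
  obtain ⟨w, hw, c1, c2⟩ := sep hQ (U := cx F (g x + x)) hW.nd (by
      rintro _ ⟨p, rfl⟩
      exact smul_mem hX hW.inv p _ (W.add_mem (hW.inv x hx) hx))
    (smul_mem hX hW.inv (X ^ (k + 1)) x hx) (by
      rintro ⟨p, e⟩
      replace e : p • (g x + x) = _ := e
      have : p • (X : F[X]) • x = 0 := g.injective (by
        have := h1 x hx
        rw [← e] at this
        simp only [s_comm hX, map_add, g_g hX, map_zero] at this ⊢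
        linear_combination (norm := module) this)
      exact x0 (e ▸ ((A x hx x0).2 p).2 (((A x hx x0).1 p).1 this)))
  replace c1 : ∀ p : F[X], polar Q (p • g x) w = polar Q (p • x) w := fun p => by
    have := c1 _ ⟨p, rfl⟩
    change polar Q (p • (g x + x)) w = 0 at this
    rwa [smul_add, polar_add_left, CharTwo.add_eq_zero] at this
  have w0 : (X ^ (k + 1) : F[X]) • w ≠ 0 := fun e => c2 (by rw [s_adj hX, e, polar_zero_right])
  have hf : ∀ u ∈ LinearMap.range (cy g x), ∀ v ∈ LinearMap.range (cy g w),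
      u + v ∈ perp Q (W2 g x w) → u = 0 ∧ v = 0 := fun u hu v hv =>
    free' hX hW.inv hn hB hx hw (by rwa [hT x hx]) hu hv
  have r1 : ∀ u v, polar Q u (g v) = polar Q (g⁻¹ u) v := fun u v => by
    rw [← O.map_polar g (g⁻¹ u), O.apply_inv_apply]
  have r2 : ∀ u v, polar Q u (g⁻¹ v) = polar Q (g u) v := fun u v => by
    rw [← O.map_polar g u, O.apply_inv_apply]
  obtain ⟨nd, s, s1, s2, s3, s4, s5⟩ := mk hX hQ hf (bl_g hX x) (bl_1 hX w) (fun p => by
    simp only [r1, r2, s_comm hX, i_comm hX, g_g hX, gi hX x, smul_add, ← mul_smul, polar_add_left,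
      c1, and_self]) (A x hx x0).2 (A w hw w0).1
  obtain ⟨-, t, t1, t2, t3, -, t5⟩ := mk hX hQ hf (bl_1 hX x) (bl_i hX w) (fun p => by
    simp only [r1, r2, s_comm hX, i_comm hX, O.apply_inv_apply, g_g hX, c1, true_and, and_true]
    simp only [gi hX x, smul_add, ← mul_smul, polar_add_left, c1]) (A x hx x0).1
    (j := k + 1) (by simpa [add_comm w] using an_gi hX (A w hw w0).2)
  refine ⟨_, sup_le (cy_le hX hW.inv hx) (cy_le hX hW.inv hw), ⟨W2_inv hX, nd⟩, s, t,
    (X ^ (k + 1) : F[X]) • w, ⟨s1, t1, s2, t2, fun y hy => ?_⟩,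
    s4 ▸ Submodule.mem_sup_right ⟨X ^ k, (mul_smul _ _ _).symm.trans (by rw [pow_succ]; rfl)⟩, ?_, ?_,
    ⟨x, Submodule.mem_sup_left (self_mem_cy x), by simpa using t5 1 0 0 0, by rwa [← s_adj hX]⟩,
    .inl (s3.trans t3.symm)⟩
  · obtain ⟨a, b, c, d, rfl⟩ := mem_W2.1 hy
    have : t (a • x + b • g x + (c • w + d • g w)) = (a + b * X) • x + b • g x +
        ((c * X + d * (X * X + 1)) • w + (c + d * X) • g w) := by
      rw [t5, gi hX (g⁻¹ w), O.apply_inv_apply, gi hX, gi hX]; module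
    rw [this, s5, gi hX]
    simp only [map_add, s_comm hX, g_g hX]
    linear_combination (norm := module) (c * X + d * X * X : F[X]) • two_sm (F := F) w
  · rw [pow_succ' (X : F[X]) k, mul_smul, hX, Q_add, O.map_Q, O.map_Q, CharTwo.add_self_eq_zero,
      zero_add, r2, g_g hX, polar_add_left, pself2, add_zero, s_comm hX, ← mul_smul,
      ← pow_succ' (X : F[X]) k, ← s_comm hX,
      h1 w hw, s_nf hX, s_alt hX]
  · have := t5 0 0 (X ^ (k + 1)) 0
    simp only [zero_smul, zero_add, add_zero] at this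
    rw [this, ← i_comm hX, O.inv_apply_eq, h1 w hw]

theorem od (hW : IN g W) (hn : ∀ v ∈ W, ((g.lin + 1) ^ (2 * k + 1 + 1)) v = 0)
    (hB : ∀ v ∈ W, polar Q (((g.lin + 1) ^ (2 * k + 1)) v) v = 0) (hx : x ∈ W)
    (x0 : ((g.lin + 1) ^ (2 * k + 1)) x ≠ 0) : Con g W := by
  have h0 : ∀ v ∈ W, (X ^ (k + 1) : F[X]) • v = 0 := fun v hv => (g ^ (k + 1)).injective (by
    rw [← n_even hX, map_zero, ← hn v hv]; rfl)
  have hN : ∀ v ∈ W, g v + v ∈ W := fun v hv => W.add_mem (hW.inv v hv) hv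
  have h1 : ∀ v ∈ W, g ((X ^ k : F[X]) • (g v + v)) = (X ^ k : F[X]) • (g v + v) := fun v hv => by
    rw [s_comm hX, map_add, g_g hX]
    linear_combination (norm := module) h0 _ (hW.inv v hv)
  have hT : ∀ v ∈ W, ((g.lin + 1) ^ (2 * k + 1)) v = (X ^ k : F[X]) • (g v + v) := fun v hv => by
    rw [pow_succ, Module.End.mul_apply, n_even hX]; exact pow_fix _ (h1 v hv)
  have A : ∀ v ∈ W, (X ^ k : F[X]) • (g v + v) ≠ 0 →
      An F ((X : F[X]) • v) k ∧ An F (g v + v) (k + 1) := fun v hv e =>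
    ⟨(An.of (h0 v hv) fun e' => e (by rw [smul_add, ← s_comm hX, e', map_zero, add_zero])).mulX,
      An.of (h0 _ (hN v hv)) e⟩
  rw [hT x hx] at x0
  obtain ⟨w, hw, c1, c2⟩ := sep hQ (U := cx F x) hW.nd (by
      rintro _ ⟨p, rfl⟩
      exact smul_mem hX hW.inv p _ hx)
    (smul_mem hX hW.inv (X ^ k) _ (hN x hx)) (by
      rintro ⟨p, e⟩
      replace e : p • x = _ := e
      obtain ⟨q, rfl⟩ := ((A x hx x0).2 p).1 (by
        rw [smul_add, ← s_comm hX, e, h1 x hx, vadd_self (F := F)])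
      exact x0 (by rw [← e, mul_comm, mul_smul, h0 x hx, smul_zero]))
  replace c1 : ∀ p : F[X], polar Q (p • x) w = 0 := fun p => c1 _ ⟨p, rfl⟩
  have r1 : ∀ u v, polar Q u (g v) = polar Q (g⁻¹ u) v := fun u v => by
    rw [← O.map_polar g (g⁻¹ u), O.apply_inv_apply]
  have r2 : ∀ u v, polar Q u (g⁻¹ v) = polar Q (g u) v := fun u v => by
    rw [← O.map_polar g u, O.apply_inv_apply]
  have c3 : polar Q x ((X ^ k : F[X]) • (g w + w)) ≠ 0 := by
    simpa only [← s_adj hX, polar_add_right, r1, i_comm hX, gi hX x, smul_add, ← mul_smul,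
      polar_add_left, c1, zero_add] using c2
  have w0 : (X ^ k : F[X]) • (g w + w) ≠ 0 := fun e => c3 (by rw [e, polar_zero_right])
  have hf : ∀ u ∈ LinearMap.range (cy g x), ∀ v ∈ LinearMap.range (cy g w),
      u + v ∈ perp Q (W2 g x w) → u = 0 ∧ v = 0 := fun u hu v hv =>
    free' hX hW.inv hn hB hx hw (by rwa [hT x hx]) hu hv
  obtain ⟨nd, s, s1, s2, s3, s4, s5⟩ := mk hX hQ hf (bl_g hX x) (bl_g hX w) (fun p => by
    simp only [r1, s_comm hX, i_comm hX, O.inv_apply_apply, gi hX x, smul_add, ← mul_smul,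
      polar_add_left, c1, zero_add, and_self]) (A x hx x0).2 (A w hw w0).2
  obtain ⟨-, t, t1, t2, t3, -, t5⟩ := mk hX hQ hf (bl_1 hX x) (bl_1 hX w) (fun p => by
    simp only [r1, r2, s_comm hX, i_comm hX, O.apply_inv_apply, true_and, and_true]
    simp only [gi hX x, smul_add, ← mul_smul, polar_add_left, c1, zero_add, and_self])
    (A x hx x0).1 (A w hw w0).1
  have hP : Pr g (W2 g x w) s t := ⟨s1, t1, s2, t2, fun y hy => by
    obtain ⟨a, b, c, d, rfl⟩ := mem_W2.1 hy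
    have : t (a • x + b • g x + (c • w + d • g w)) = (a + b * X) • x + b • g x +
        ((c + d * X) • w + d • g w) := by
      rw [t5, gi hX, gi hX]; module
    rw [this, s5]
    simp only [map_add, s_comm hX, g_g hX]
    module⟩
  have hB' : ∀ v ∈ W, polar Q ((X ^ k : F[X]) • (g v + v)) v = 0 := fun v hv => by
    rw [← hT v hv, hB v hv]
  have q0 : ∀ v ∈ W, Q ((X ^ k : F[X]) • (g v + v)) = 0 := fun v hv => by
    rw [smul_add, Q_add, e1 hX, CharTwo.add_self_eq_zero, zero_add, s_nf hX]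
    rcases k with _ | k
    · simpa only [pow_zero, one_smul, one_mul, polar_add_left, pself2, add_zero] using hB' v hv
    · rw [show (X ^ (k + 1) * X ^ (k + 1) : F[X]) = X ^ k * X ^ (k + 1 + 1) by ring, mul_smul,
        h0 _ (hW.inv v hv), smul_zero, polar_zero_left]
  have f0 : ∀ v ∈ W, (X ^ k : F[X]) • v + (X ^ k : F[X]) • g⁻¹ v = (X ^ k : F[X]) • (g v + v) :=
    fun v hv => by rw [gi hX]; linear_combination (norm := module) h0 v hv
  have mx : x ∈ W2 g x w := Submodule.mem_sup_left (self_mem_cy x)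
  have sx : s x = g x := by simpa using s5 1 0 0 0
  have rk : s.rk = t.rk + 2 := by omega
  refine ⟨_, sup_le (cy_le hX hW.inv hx) (cy_le hX hW.inv hw), ⟨W2_inv hX, nd⟩, s, t, ?_⟩
  by_cases e : polar Q x (g x) = 0
  · refine ⟨_, hP, s4 ▸ Submodule.mem_sup_right ⟨X ^ k, rfl⟩, q0 w hw, ?_,
      ⟨x, mx, by simpa using t5 1 0 0 0, c3⟩,
      .inr ⟨rk, x, mx, by rw [sx, e]; exact (pow_ne_zero 2 c3).symm⟩⟩
    have := t5 0 0 (X ^ k) (X ^ k)
    simp only [zero_smul, zero_add] at this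
    rw [smul_add, add_comm, this, f0 w hw, smul_add, add_comm]
  · refine ⟨_, hP, s4 ▸ Submodule.mem_sup_left ⟨X ^ k, rfl⟩, q0 x hx, ?_,
      ⟨w, Submodule.mem_sup_right (self_mem_cy w), by simpa using t5 0 0 1 0, by rwa [polar_comm]⟩,
      .inr ⟨rk, x, mx, by rwa [sx, pc (hB' x hx), zero_pow two_ne_zero]⟩⟩
    have := t5 (X ^ k) (X ^ k) 0 0
    simp only [zero_smul, add_zero] at this
    rw [smul_add, add_comm, this, f0 x hx, smul_add, add_comm]

end H95.OE

namespace H95.OE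
open H56 H60 H93.O2 H93.FS H93.Or QuadraticMap Module Polynomial

universe u

theorem jobE : JobE.{u} := by
  intro F V _ _ _ _ _ _ Q hQ g W n hW h1 hn hB ⟨x, hx, x0⟩
  let _ : Module F[X] V := Module.compHom V (aeval (R := F) (g.lin + g⁻¹.lin)).toRingHom
  have h : ∀ (p : F[X]) (v : V), p • v = aeval (g.lin + g⁻¹.lin) p v := fun _ _ => rfl
  have : IsScalarTower F F[X] V := IsScalarTower.of_algebraMap_smul fun a v => by simp [h]
  have hX : ∀ v : V, (X : F[X]) • v = g v + g⁻¹ v := fun v => by simp [h]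
  obtain ⟨k, rfl | rfl⟩ := Nat.even_or_odd' n
  · obtain ⟨k, rfl⟩ : ∃ j, k = j + 1 := ⟨k - 1, by omega⟩
    exact ev hX hQ hW hn hB hx x0
  · exact od hX hQ hW hn hB hx x0

end H95.OE
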