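import Cfsg.Agent.H48.DP3Kit

/-! S3275, chapter (3): transvections on `W = Ω₁ Z(O₂(L))` (`JobTV`). -/

set_option autoImplicit false
set_option linter.unusedSectionVars false

namespace H95.DPTV

open Subgroup Cfsg H98 H97 H48.DP
open scoped commutatorElement

universe u

variable {G : Type u} [Group G] [Finite G] {T P R L H : Subgroup G} {a b g p t w x : G}

theorem sqW (h : w ∈ Zq L) : w * w = 1 := pow_two w ▸ (mem_oZ.1 h).2.2

theorem comW (h : w ∈ Zq L) (h' : x ∈ Zq L) : w * x = x * w := (mem_oZ.1 h').2.1 w (Zq_le L h)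

theorem mem_C1' : w ∈ C1 a ↔ a * w * a⁻¹ = w := mem_C1.trans mul_inv_eq_iff_eq_mul.symm

theorem cW (h : w ∈ Zq L) (hg : g ∈ L) : g * w * g⁻¹ ∈ Zq L :=
  conj_mem_of_mem_normalizer (le_No_Zq L hg) h

theorem conj_eq (h : a⁻¹ * b ∈ O2 L) (hw : w ∈ Zq L) : b * w * b⁻¹ = a * w * a⁻¹ := by
  rw [show b * w * b⁻¹ = a * (a⁻¹ * b * w) * b⁻¹ by group, (mem_oZ.1 hw).2.1 _ h]; group

/-- `a` acts on `W` as a transvection with centre `p`. -/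
structure Tr (L : Subgroup G) (a p : G) : Prop where
  mem : a ∈ L
  ne : p ≠ 1
  act : ∀ w ∈ Zq L, a * w * a⁻¹ = w ∨ a * w * a⁻¹ = w * p
  ex : ∃ w ∈ Zq L, a * w * a⁻¹ = w * p

namespace Tr

variable (h : Tr L a p)
include h

theorem memW : p ∈ Zq L :=
  let ⟨_, h1, h2⟩ := h.ex
  (mul_mem_cancel_left h1).1 (h2 ▸ cW h1 h.mem)

theorem fix : a * p * a⁻¹ = p := (h.act p h.memW).resolve_right fun k =>
  h.ne (conj_eq_one_iff.1 (k.trans (sqW h.memW)))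

theorem mv (hw : w ∈ Zq L) (k : w ∉ C1 a) : a * w * a⁻¹ = w * p :=
  (h.act w hw).resolve_left fun e => k (mem_C1'.2 e)

theorem ex' : ∃ w ∈ Zq L, w ∉ C1 a :=
  let ⟨w, h1, h2⟩ := h.ex
  ⟨w, h1, fun k => h.ne (left_eq_mul.1 ((mem_C1'.1 k).symm.trans h2))⟩

theorem conj (hg : g ∈ L) : Tr L (g * a * g⁻¹) (g * p * g⁻¹) := by
  refine ⟨mul_mem (mul_mem hg h.mem) (inv_mem hg), fun e => h.ne (conj_eq_one_iff.1 e),
    fun w hw => ?_, ?_⟩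
  · have e : g * a * g⁻¹ * w * (g * a * g⁻¹)⁻¹ = g * (a * (g⁻¹ * w * g⁻¹⁻¹) * a⁻¹) * g⁻¹ := by group
    rw [e]
    refine (h.act _ (cW hw (inv_mem hg))).imp (fun k => ?_) fun k => ?_ <;> rw [k] <;> group
  · obtain ⟨w, h1, h2⟩ := h.ex
    exact ⟨_, cW h1 hg, by rw [conj_mul, conj_mul, ← h2]; group⟩

theorem congr (k : a⁻¹ * b ∈ O2 L) : Tr L b p :=
  ⟨(mul_mem_cancel_left (inv_mem h.mem)).1 (pCoreOf_le _ k), h.ne,
    fun w hw => conj_eq k hw ▸ h.act w hw,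
    let ⟨w, h1, h2⟩ := h.ex
    ⟨w, h1, (conj_eq k h1).trans h2⟩⟩

theorem idx (hH : H ≤ Zq L) (hw : w ∈ H) (k : w ∉ C1 a) : (C1 a).relIndex H = 2 :=
  relIndex_eq_two_iff.2 ⟨w, hw, fun b hb => by
    by_cases e : b ∈ C1 a
    · exact .inr ⟨e, fun e' => k ((mul_mem_cancel_left e).1 e')⟩
    · refine .inl ⟨mem_C1'.2 ?_, e⟩
      rw [← conj_mul, h.mv (hH hb) e, h.mv (hH hw) k, mul_assoc, ← mul_assoc p,
        comW h.memW (hH hw), mul_assoc, sqW h.memW, mul_one]⟩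

theorem not_le : ¬ L ≤ Ce (Zq L) := fun k =>
  let ⟨w, h1, h2⟩ := h.ex'
  h2 (mem_C1.2 (k h.mem w h1).symm)

end Tr

theorem tr_of_idx (ha : a ∈ L) (h : (C1 a).relIndex (Zq L) = 2) : ∃ p, Tr L a p := by
  obtain ⟨w, h1, h2⟩ := SetLike.not_le_iff_exists.1 fun k : Zq L ≤ C1 a => by
    rw [relIndex_eq_one.2 k] at h; omega
  have m := mul_mem (inv_mem h1) (cW h1 ha)
  refine ⟨w⁻¹ * (a * w * a⁻¹), ha, fun e => h2 (mem_C1'.2 (inv_mul_eq_one.1 e).symm),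
    fun v hv => ?_, w, h1, by group⟩
  by_cases e : v ∈ C1 a
  · exact .inl (mem_C1'.1 e)
  · have := mem_C1'.1 (mul_mem_of_idx h.le hv h1 e h2)
    rw [← conj_mul, ← eq_mul_inv_iff_mul_eq, inv_eq_of_mul_eq_one_right (sqW (cW h1 ha))] at this
    rw [this, inv_eq_of_mul_eq_one_right (sqW h1), mul_assoc v]
    exact .inr rfl

theorem prod3 (h : LH T P R L) (hx : x ∈ P) (ho : orderOf x = 3) (ha : a ∈ O2 P) (ha' : a ∉ O2 L) :
    a⁻¹ * (x * a * x⁻¹ * (x ^ 2 * a * (x ^ 2)⁻¹)) ∈ O2 L := by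
  have n : ∀ g ∈ P, g * a * g⁻¹ ∈ O2 P := fun g hg =>
    conj_mem_of_mem_normalizer (le_normalizer_pCoreOf le_normalizer hg) ha
  have h1 := n x hx
  have h2 := n _ (pow_mem hx 2)
  rcases h.cos hx ho ha ha' (mul_mem h1 h2) with k | k | k | k
  · refine (h.ne_conj hx ho h1 (h.conj_not_mem hx ha') ?_).elim
    have := mul_mem (inv_mem (h.el _ h1)) k
    rwa [show (x * a * x⁻¹ * (x * a * x⁻¹))⁻¹ * (x * a * x⁻¹ * (x ^ 2 * a * (x ^ 2)⁻¹)) =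
      (x * a * x⁻¹)⁻¹ * (x * (x * a * x⁻¹) * x⁻¹) by rw [pow_two]; group] at this
  · exact k
  · rw [inv_mul_cancel_left] at k
    exact (h.conj_not_mem (pow_mem hx 2) ha' k).elim
  · refine (h.conj_not_mem (inv_mem (pCoreOf_le _ h2)) (h.conj_not_mem hx ha') ?_).elim
    rwa [inv_inv, mul_assoc]

theorem not_cen (h : LT T P R L) (k : Tr L a p) (hx : x ∈ L) (ho : orderOf x = 3) :
    x ∉ Ce (Zq L) := fun e =>
  not_mem_of_three (isPGroup_pCoreOf L) ho ((h.nc_or.resolve_right k.not_le).le ⟨hx, e⟩)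

theorem Zq_le_C1 (ht : t ∈ O2 P) : Zq P ≤ C1 t := fun _ hw => mem_C1.2 ((mem_oZ.1 hw).2.1 t ht)

theorem ax (h : LT T P R L) (hc : CharP 2 L) (ht : t ∈ O2 R) (k : Zq L ⊓ C1 t ≤ Ce (O2 P)) :
    R ≤ Ce (Zq R) :=
  h.h2.s3.le_of_norm (h.sup.ge.trans (sup_le (le_centralizer_iff.1
    ((le_inf (h.h2.Zq_le hc) (Zq_le_C1 ht)).trans k)) (le_centralizer_oZ _)))
    (le_normalizer_centralizer (le_No_Zq R))

theorem oZ_le_W (h : LT T P R L) (hc : CharP 2 L) : oZ 2 T ≤ Zq L := oZ_le_Zq hc h.le h.o2_le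

theorem mv1 (h : LH T P R L) (hx : x ∈ P) (ho : orderOf x = 3) (ht : t ∈ O2 P) (ht' : t ∉ O2 L)
    (h1 : w ∈ Zq L) (h2 : w ∈ C1 t) (h3 : w ∉ Ce (O2 P)) : w ∉ C1 (x * t * x⁻¹) := fun k =>
  h3 fun _ hb => (mem_C1.1 (h.le_of (K := C1 w) (fun c hc => mem_C1.2 ((mem_oZ.1 h1).2.1 c hc).symm)
    hx ho ht ht' (mem_C1.2 (mem_C1.1 h2).symm) (mem_C1.2 (mem_C1.1 k).symm) hb)).symm

theorem same (h : LH T P R L) (ht : t ∈ O2 P) (ht' : t ∉ O2 L) (k : Tr L t p)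
    (n : ¬ Zq L ⊓ C1 t ≤ Ce (O2 P)) : (∀ a ∈ O2 P, a ∉ O2 L → Tr L a p) ∧ P ≤ C1 p := by
  obtain ⟨x, hx, ho⟩ := h.s3.exists_three
  obtain ⟨w, ⟨w1, w2⟩, w3⟩ := SetLike.not_le_iff_exists.1 n
  have k1 := k.conj (h.leL hx)
  have k2 := k.conj (h.leL (pow_mem hx 2))
  have e := (conj_eq (prod3 h hx ho ht ht') w1).trans (mem_C1'.1 w2)
  have e1 := k1.mv w1 (mv1 h hx ho ht ht' w1 w2 w3)
  have e2 := k2.mv w1 (mv1 h (pow_mem hx 2) (orderOf_sq_three ho) ht ht' w1 w2 w3)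
  have e3 : x * p * x⁻¹ = p := by
    have f1 := k1.fix
    have s1 := sqW k1.memW
    have : x ^ 2 * p * (x ^ 2)⁻¹ = x * p * x⁻¹ := by
      generalize x * t * x⁻¹ = a, x ^ 2 * t * (x ^ 2)⁻¹ = b, x * p * x⁻¹ = c,
        x ^ 2 * p * (x ^ 2)⁻¹ = d at *
      rw [show a * b * w * (a * b)⁻¹ = a * (b * w * b⁻¹) * a⁻¹ by group, e2, ← conj_mul, e1,
        mul_assoc w, mul_eq_left, ← s1, mul_right_inj, ← f1, mul_left_inj, mul_right_inj] at e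
      exact e
    rwa [pow_two, show x * x * p * (x * x)⁻¹ = x * (x * p * x⁻¹) * x⁻¹ by group, mul_left_inj,
      mul_right_inj] at this
  have e4 : x ^ 2 * p * (x ^ 2)⁻¹ = p := by
    rw [pow_two, show x * x * p * (x * x)⁻¹ = x * (x * p * x⁻¹) * x⁻¹ by group, e3, e3]
  rw [e3] at k1
  rw [e4] at k2
  have all : ∀ a ∈ O2 P, a ∉ O2 L → Tr L a p := fun a ha ha' => by
    rcases h.cos hx ho ht ht' ha with j | j | j | j
    exacts [(ha' j).elim, k.congr j, k1.congr j, k2.congr j]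
  refine ⟨all, fun g hg => mem_C1.2 (mul_inv_eq_iff_eq_mul.1 ?_).symm⟩
  obtain ⟨v, v1, v2⟩ := (k.conj (h.leL hg)).ex'
  exact mul_left_cancel (((k.conj (h.leL hg)).mv v1 v2).symm.trans ((all _
    (conj_mem_of_mem_normalizer (le_normalizer_pCoreOf le_normalizer hg) ht)
    (h.conj_not_mem hg ht')).mv v1 v2))

theorem comm_eq (hp : p ∈ Zq L) (hw : w ∈ Zq L) (k : a * w * a⁻¹ = w ∨ a * w * a⁻¹ = w * p) :
    ⁅w, a⁆ = 1 ∨ ⁅w, a⁆ = p := by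
  rw [show ⁅w, a⁆ = w * (a * w * a⁻¹)⁻¹ by rw [commutatorElement_def]; group]
  refine k.imp (fun k => by rw [k, mul_inv_cancel]) fun k => ?_
  rw [k, comW hw hp, mul_inv_rev, mul_inv_cancel_left, inv_eq_of_mul_eq_one_right (sqW hp)]

theorem core (h : LT T P R L) (hc : CharP 2 L) (tP : t ∈ O2 P) (tR : t ∈ O2 R) (tL : t ∉ O2 L)
    (k : Tr L t p) (n : ¬ Zq L ⊓ C1 t ≤ Ce (O2 P)) : Tv T P R L p := by
  obtain ⟨s1, s2⟩ := same h.h1 tP tL k n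
  obtain ⟨x, hx, ho⟩ := h.h1.s3.exists_three
  have pW := k.memW
  have nc : ¬ R ≤ C1 p := fun e => by
    have e1 : L ≤ Ce (zpowers p) := fun g hg => by
      rintro _ ⟨j, rfl⟩
      exact (Commute.zpow_left (mem_C1.1 (h.eq.le.trans (sup_le s2 e) hg)) j).eq
    have e2 := le_normalizer_of_le_centralizer e1
    refine not_cen h k (h.h1.leL hx) ho (cent_of_chain ((isPGroup_Zq L).to_le (zpowers_le.2 pW)) ho
      (mem_stab.1 (h.three_mem (le_normalizer_stab (le_No_Zq L) e2) (mem_stab.2 ⟨e2 k.mem,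
        fun w hw => ?_⟩) k.mem tL (h.h1.leL hx) ho)).2 (e1 (h.h1.leL hx)))
    rcases comm_eq pW hw (k.act w hw) with j | j <;> rw [j]
    exacts [one_mem _, mem_zpowers p]
  have nR : Zq L ⊓ C1 t ≤ Ce (O2 R) := by_contra fun e => nc (same h.h2 tR tL k e).2
  have eR : Zq R = C1 t ⊓ Zq L := le_antisymm (le_inf (Zq_le_C1 tR) (h.h2.Zq_le hc))
    fun w hw => h.h2.mem_Zq hw.2 (nR ⟨hw.2, hw.1⟩)
  obtain ⟨v, v1, v2⟩ := k.ex'
  have i2 : (Zq R).relIndex (Zq L) = 2 := by rw [eR, inf_relIndex_right, k.idx le_rfl v1 v2]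
  refine ⟨k.ne, mem_oZ.2 ⟨h.o2_le (Zq_le L pW), fun g hg => (mem_C1.1 (s2 (h.h1.s3.le hg))).symm,
    by rw [pow_two, sqW pW]⟩, fun a ha w hw => comm_eq pW hw ?_, i2, ?_, ax h.symm hc tP nR, ?_, nc⟩
  · by_cases e : a ∈ O2 L
    · exact .inl (mul_inv_eq_iff_eq_mul.2 ((mem_oZ.1 hw).2.1 a e))
    · exact (s1 a ha e).act w hw
  · obtain ⟨w, ⟨w1, w2⟩, w3⟩ := SetLike.not_le_iff_exists.1 n
    have eP : Zq P = C1 (x * t * x⁻¹) ⊓ Zq R := le_antisymm (le_inf (Zq_le_C1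
      (conj_mem_of_mem_normalizer (le_normalizer_pCoreOf le_normalizer hx) tP))
      (eR ▸ le_inf (Zq_le_C1 tP) (h.h1.Zq_le hc))) fun u hu => by
        rw [eR] at hu
        exact h.h1.mem_Zq hu.2.2 (by_contra fun e => mv1 h.h1 hx ho tP tL hu.2.2 hu.2.1 e hu.1)
    rw [← relIndex_mul_relIndex _ _ _ (eP.le.trans inf_le_right) (h.h2.Zq_le hc), i2, eP,
      inf_relIndex_right, (k.conj (h.h1.leL hx)).idx (h.h2.Zq_le hc) (eR.ge ⟨w2, w1⟩)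
        (mv1 h.h1 hx ho tP tL w1 w2 w3)]
  · obtain ⟨y, hy, oy⟩ := h.h2.s3.exists_three
    have mv : ∀ g ∈ R, g * t * g⁻¹ * v * (g * t * g⁻¹)⁻¹ = v * (g * p * g⁻¹) := fun g hg =>
      (k.conj (h.h2.leL hg)).mv v1 fun e => v2 (by
        have : g⁻¹ * v * g⁻¹⁻¹ ∈ Zq R := eR.ge ⟨mem_C1.2 (by
          rw [inv_inv, show t * (g⁻¹ * v * g) = g⁻¹ * (g * t * g⁻¹ * v) * g by group, mem_C1.1 e]
          group), cW v1 (inv_mem (h.h2.leL hg))⟩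
        have := conj_mem_of_mem_normalizer (le_No_Zq R hg) this
        rw [show g * (g⁻¹ * v * g⁻¹⁻¹) * g⁻¹ = v by group] at this
        exact (eR.le this).1)
    have e := (conj_eq (prod3 h.h2 hy oy tR tL) v1).trans (k.mv v1 v2)
    have e1 := mv y hy
    have e2 := mv _ (pow_mem hy 2)
    have e3 := mem_C1'.1 (Zq_le_C1 (conj_mem_of_mem_normalizer
      (le_normalizer_pCoreOf le_normalizer hy) tR) (conj_mem_of_mem_normalizer
      (le_No_Zq R (pow_mem hy 2)) (eR.ge ⟨mem_C1'.2 k.fix, pW⟩)))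
    refine ⟨y, hy, oy, mem_bot.2 ?_⟩
    generalize y * t * y⁻¹ = a, y ^ 2 * t * (y ^ 2)⁻¹ = b, y * p * y⁻¹ = c,
      y ^ 2 * p * (y ^ 2)⁻¹ = d at *
    rw [show a * b * v * (a * b)⁻¹ = a * (b * v * b⁻¹) * a⁻¹ by group, e2, ← conj_mul, e1, e3,
      mul_assoc v, mul_right_inj] at e
    rw [mul_assoc, e, sqW pW]

theorem part1 (h : LT T P R L) (hc : CharP 2 L) (k : (Zq P).relIndex (Zq L) ≤ 4) :
    R ≤ Ce (oZ 2 T) ∨ ∃ p, Tv T P R L p := by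
  obtain ⟨t, tP, tR, tL⟩ := h.exists_t
  have tl : t ∈ L := h.h1.leL (pCoreOf_le _ tP)
  by_cases n : Zq L ⊓ C1 t ≤ Ce (O2 P)
  · exact .inl ((ax h hc tR n).trans (centralizer_anti fun z hz => h.h2.mem_Zq (oZ_le_W h hc hz)
      (centralizer_anti h.h2.s3.o2_le (oZ_le_centralizer T hz))))
  rw [← relIndex_mul_relIndex _ (C1 t ⊓ Zq L) _ (le_inf (Zq_le_C1 tP) (h.h1.Zq_le hc)) inf_le_right,
    inf_relIndex_right] at k
  have k1 := relIndex_ne_zero' (Zq P) (C1 t ⊓ Zq L)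
  have k2 : (Zq P).relIndex (C1 t ⊓ Zq L) ≠ 1 := fun e =>
    n ((inf_comm _ _).trans_le ((relIndex_eq_one.1 e).trans (oZ_le_centralizer _)))
  have k3 := relIndex_ne_zero' (C1 t) (Zq L)
  by_cases e : (C1 t).relIndex (Zq L) = 1
  · refine .inl (h.h2.leL.trans ((h.nc_or.resolve_left fun j => tL (j.le ⟨tl, fun w hw => ?_⟩)).trans
      (centralizer_anti (oZ_le_W h hc))))
    exact (mem_C1.1 (relIndex_eq_one.1 e hw)).symm
  obtain ⟨p, hp⟩ := tr_of_idx tl (by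
    have : 2 * (C1 t).relIndex (Zq L) ≤ 4 := (Nat.mul_le_mul_right _ (by omega)).trans k
    omega)
  exact .inr ⟨p, core h hc tP tR tL hp n⟩

theorem part2 (h : LT T P R L) (hc : CharP 2 L) (ha : a ∈ O2 P) (k : Tr L a p) :
    (∃ p, Tv T P R L p) ∨ ∃ p, Tv T R P L p := by
  obtain ⟨t, tP, tR, tL⟩ := h.exists_t
  obtain ⟨x, hx, ho⟩ := h.h1.s3.exists_three
  obtain ⟨p, k⟩ : ∃ p, Tr L t p := by
    obtain ⟨v, v1, v2⟩ := k.ex'
    rcases h.h1.cos hx ho ha (fun e => v2 (Zq_le_C1 e v1)) tP with j | j | j | j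
    exacts [(tL j).elim, ⟨_, k.congr j⟩, ⟨_, (k.conj (h.h1.leL hx)).congr j⟩,
      ⟨_, (k.conj (h.h1.leL (pow_mem hx 2))).congr j⟩]
  by_cases n : Zq L ⊓ C1 t ≤ Ce (O2 P)
  swap
  · exact .inl ⟨p, core h hc tP tR tL k n⟩
  by_cases n' : Zq L ⊓ C1 t ≤ Ce (O2 R)
  swap
  · exact .inr ⟨p, core h.symm hc tR tP tL k n'⟩
  have e : x ∈ Ce (C1 t ⊓ Zq L) := centralizer_anti (A := C1 t ⊓ Zq L)
    (fun w hw => h.h1.mem_Zq hw.2 (n ⟨hw.2, hw.1⟩)) (ax h.symm hc tP n' hx)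
  obtain ⟨v, v1, v2⟩ := k.ex'
  exact (not_cen h k (h.h1.leL hx) ho (cent_of_chain ((isPGroup_Zq L).to_le inf_le_right) ho
    (mem_stab.1 (mem_stab_of_idx (by rw [inf_relIndex_right, k.idx le_rfl v1 v2])
      (le_No_Zq L (h.h1.leL hx)) (le_normalizer_of_le_centralizer le_rfl e))).2 e)).elim

theorem jobTV : JobTV.{u} := fun G _ _ T P R L h hc => ⟨part1 h hc, fun a ha k => by
  obtain ⟨p, k⟩ := tr_of_idx (h.le ha) k
  have : a * a ∈ O2 L := (h.nc_or.resolve_right k.not_le).le ⟨mul_mem k.mem k.mem, fun w hw => by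
    refine (mul_inv_eq_iff_eq_mul.1 ?_).symm
    rw [show a * a * w * (a * a)⁻¹ = a * (a * w * a⁻¹) * a⁻¹ by group]
    rcases k.act w hw with j | j <;> rw [j]
    · exact j
    · rw [← conj_mul, j, k.fix, mul_assoc, sqW k.memW, mul_one]⟩
  by_cases e : a ∈ O2 P
  · exact part2 h hc e k
  · exact (part2 h.symm hc (by_contra fun e' => h.sq a ha e e' this) k).symm⟩

end H95.DPTV
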