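import Cfsg.Agent.H11.FBSpec

/-! FB: the job H3. -/

set_option autoImplicit false

namespace H95.FbH3

open H11.FB MulAction Subgroup

universe u v

theorem ncard4 {Ω : Type v} (a b c d : Ω) : ({a, b, c, d} : Set Ω).ncard ≤ 4 :=
  (Set.ncard_insert_le _ _).trans (Nat.succ_le_succ ((Set.ncard_insert_le _ _).trans
    (Nat.succ_le_succ ((Set.ncard_insert_le _ _).trans (by simp)))))

theorem jobH3 : JobH3.{u, v} := by
  intro G Ω _ _ _ _ _ _ a b c d K H P h cx hh hp h4 h7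
  have t := cx.th1 h hh hp
  have f := cx.hy.fr
  obtain ⟨ω₀, o1, o2⟩ : ∃ ω ∈ fixedBy Ω h, ω ∉ ({a, b, c, d} : Set Ω) :=
    Set.exists_mem_notMem_of_ncard_lt_ncard (by have := ncard4 a b c d; have := t.card; omega)
  have p1 : ∀ x ∈ H, x ≠ 1 → fixedBy Ω x = fixedBy Ω h := fun x hx x1 => by
    refine Set.Subset.antisymm (fun ω hω => ?_) fun ω hω => t.fixH h7 x hx ω hω
    have n1 : orderOf x ≠ 1 := fun e => x1 (orderOf_eq_one_iff.1 e)
    have ho := orderOf_pow_orderOf_div (orderOf_pos x).ne' (Nat.minFac_dvd (orderOf x))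
    have hm := H.pow_mem hx (orderOf x / (orderOf x).minFac)
    have t' := cx.th1 _ hm (by rw [ho]; exact Nat.minFac_prime n1)
    have hω' : ω ∈ fixedBy Ω (x ^ (orderOf x / (orderOf x).minFac)) :=
      (stabilizer G ω).pow_mem (show x ∈ stabilizer G ω from hω) _
    by_cases c7 : (fixedBy Ω (x ^ (orderOf x / (orderOf x).minFac))).ncard = 7
    · obtain ⟨y, hy, e⟩ := t'.seven c7
      exact (o2 (e ω₀ (t.fixH h7 _ hm ω₀ o1) (t.fixH h7 y hy ω₀ o1))).elim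
    · exact t'.fixH c7 h hh ω hω'
  refine ⟨p1, fun ho => ?_⟩
  have c7 := cx.ph2.od7 ho
  obtain ⟨y, hy, e⟩ := cx.ph1.movH c7
  have sub : ({a, b, c, d} : Set Ω) ⊆ fixedPoints P Ω := fun ω hω x => by
    obtain ⟨e1, e2, e3, e4⟩ := mem_L4.1 (f.Kle (cx.pd.le x.2))
    rcases hω with rfl | rfl | rfl | rfl <;> assumption
  obtain ⟨n1, n2, n3, n4, n5, n6⟩ := cx.hy.ne
  have c4 : ({a, b, c, d} : Set Ω).ncard = 4 := by
    rw [Set.ncard_insert_of_notMem (by simp [n1, n2, n3]),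
      Set.ncard_insert_of_notMem (by simp [n4, n5]), Set.ncard_pair n6]
  have c3 : (fixedPoints P Ω \ {a, b, c, d}).ncard = 3 := by
    rw [Set.ncard_diff sub, c7, c4]
  obtain ⟨ω, hω⟩ := Set.nonempty_of_ncard_ne_zero (s := fixedPoints P Ω \ {a, b, c, d}) (by omega)
  have mem : ∀ x ∈ H, x • ω ∈ fixedPoints P Ω \ {a, b, c, d} := fun x hx => by
    have xl := f.Hle (H.inv_mem hx)
    refine ⟨fun z => ?_, fun h0 => hω.2 ?_⟩
    · have : (x⁻¹ * z * x⁻¹⁻¹) • ω = ω :=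
        hω.1 ⟨_, cx.pd.conj_mem f (fun l hl => mul_mem (mul_mem xl hl) (inv_mem xl)) z.2⟩
      rw [inv_inv] at this
      exact conj_smul_iff.1 this
    · obtain ⟨e1, e2, e3, e4⟩ := mem_L4.1 xl
      rw [← inv_smul_smul x ω]
      rcases h0 with h0 | h0 | h0 | h0 <;> rw [h0] <;> simp [e1, e2, e3, e4]
  have le3 : Nat.card H ≤ 3 := by
    rw [← c3, ← Nat.card_coe_set_eq]
    refine Nat.card_le_card_of_injective (fun x : H => ⟨_, mem x x.2⟩) fun x z e0 => ?_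
    have e1 : (x : G) • ω = (z : G) • ω := congrArg Subtype.val e0
    by_contra ne
    have e2 : ω ∈ fixedBy Ω ((z : G)⁻¹ * x) := by
      rw [mem_fixedBy, mul_smul, e1, inv_smul_smul]
    rw [p1 _ (mul_mem (inv_mem z.2) x.2) fun e3 => ne (Subtype.ext (inv_mul_eq_one.1 e3).symm)] at e2
    exact hω.2 (e ω hω.1 (t.fixH h7 y hy ω e2))
  have n1 : Nat.card H ≠ 1 := fun e => f.Hne (card_eq_one.1 e)
  obtain ⟨m, hm⟩ := cx.odd
  omega

end H95.FbH3
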