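import Cfsg.Agent.H15.KGKit

/-! Tower KG, slot A: the basic class data. -/

set_option autoImplicit false

namespace H95.KG

open Classical Finset H15.KG

universe u

variable {G : Type u} [Group G] [Finite G]

theorem ne_one_of_ord {u : G} {r e : ℕ} (hr : r.Prime) (h : orderOf u = r ^ (e + 1)) : u ≠ 1 :=
  fun k => by
    rw [k, orderOf_one] at h
    exact (Nat.one_lt_pow (by omega) hr.one_lt).ne h

theorem part_data {x : G} {r e : ℕ} (hr : r.Prime) (h : orderOf (part r x) = r ^ (e + 1))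
    (d : Cl G) : p1 (rep (cls (part r x) d)) = r ∧ p2 (rep (cls (part r x) d)) = 1 ∧
      cc x ∣ cc (rep (cls (part r x) d)) ∧ orderOf (rep (cls (part r x) d)) = r ^ (e + 1) := by
  have hc := conj_cls (ne_one_of_ord hr h) d
  have ho := (ord_conj hc).symm.trans h
  obtain ⟨a, b⟩ := p1_of_pow hr ho
  exact ⟨a, b, cc_conj hc ▸ cc_dvd_pow x _, ho⟩

theorem smooth (hN : NT G) {x : G} (h : p2 x ≠ 1) : ∃ e f, cc x = p1 x ^ e * p2 x ^ f := by
  obtain ⟨hp, hq, hl, e, f, ho⟩ := ord_of_p2 hN h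
  have h0 := (cc_pos x).ne'
  obtain ⟨a, m, hm, e1⟩ := Nat.exists_eq_pow_mul_and_not_dvd h0 (p1 x) hp.ne_one
  have hm0 : m ≠ 0 := by rintro rfl; exact hm (dvd_zero _)
  obtain ⟨b, k, hk, e2⟩ := Nat.exists_eq_pow_mul_and_not_dvd hm0 (p2 x) hq.ne_one
  refine ⟨a, b, ?_⟩
  by_cases hk1 : k = 1
  · rw [e1, e2, hk1, mul_one]
  exfalso
  obtain ⟨l, hlp, hd⟩ := Nat.exists_prime_and_dvd hk1
  have hdm : l ∣ m := e2 ▸ hd.mul_left _
  have hdc : l ∣ cc x := e1 ▸ hdm.mul_left _
  have n1 : l ≠ p1 x := fun k => hm (k ▸ hdm)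
  have n2 : l ≠ p2 x := fun k' => hk (k' ▸ hd)
  haveI := Fact.mk hlp
  obtain ⟨w, hw⟩ := exists_prime_orderOf_dvd_card' l hdc
  have hw' : orderOf (w : G) = l := (Subgroup.orderOf_coe w).trans hw
  have hc : Commute x w := (Subgroup.mem_centralizer_singleton_iff.1 w.2).symm
  have co : (orderOf x).Coprime (orderOf (w : G)) := by
    rw [ho, hw']
    exact Nat.Coprime.mul_left (((Nat.coprime_primes hp hlp).2 n1.symm).pow_left _)
      (((Nat.coprime_primes hq hlp).2 n2.symm).pow_left _)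
  have o := hc.orderOf_mul_eq_mul_orderOf_of_coprime co
  have h0' := (orderOf_pos (x * w)).ne'
  have hsub : ({p1 x, p2 x, l} : Finset ℕ) ⊆ (orderOf (x * w)).primeFactors := by
    intro a ha
    simp only [mem_insert, mem_singleton] at ha
    rcases ha with rfl | rfl | rfl
    · exact Nat.mem_primeFactors.2 ⟨hp, by
        rw [o, ho]; exact ((dvd_pow_self _ (by omega)).mul_right _).mul_right _, h0'⟩
    · exact Nat.mem_primeFactors.2 ⟨hq, by
        rw [o, ho]; exact ((dvd_pow_self _ (by omega)).mul_left _).mul_right _, h0'⟩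
    · exact Nat.mem_primeFactors.2 ⟨hlp, by rw [o, hw']; exact dvd_mul_left _ _, h0'⟩
  have := (card_le_card hsub).trans (hN _)
  rw [card_eq_three.2 ⟨_, _, _, hl.ne, n1.symm, n2.symm, rfl⟩] at this
  omega

theorem jobA : JobA.{u} := by
  intro G _ _ h5 hN
  refine ⟨card_cl, ?_, fun i => h5 _, fun i => cc_dvd _, fun i => p1_prime (rep_ne i), fun i => ?_,
    fun i => ?_, fun j h => ?_, fun j h => smooth hN h, fun i h => ?_, fun j h h2 h4 => ?_⟩
  · haveI := Fintype.ofFinite G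
    have h := sum_class (G := G) (fun _ => 1) (fun _ _ _ => rfl)
    simp only [sum_const, card_univ, smul_eq_mul, mul_one] at h
    rw [← Nat.card_eq_fintype_card] at h
    have hg : (Nat.card G : ℚ) ≠ 0 := Nat.cast_ne_zero.2 Nat.card_pos.ne'
    have h' : (Nat.card G : ℚ) = 1 + ∑ i : Cl G, (Nat.card G : ℚ) / cc (rep i) := by
      conv_lhs => rw [h]
      push_cast
      congr 1
      exact sum_congr rfl fun i _ => Nat.cast_div (cc_dvd _) (Nat.cast_ne_zero.2 (cc_pos _).ne')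
    change ∑ i : Cl G, (1 : ℚ) / cc (rep i) + 1 / Nat.card G = 1
    have e : ∑ i : Cl G, (Nat.card G : ℚ) / cc (rep i) =
        Nat.card G * ∑ i : Cl G, (1 : ℚ) / cc (rep i) := by
      rw [mul_sum]
      exact sum_congr rfl fun i _ => by rw [mul_one_div]
    rw [e] at h'
    field_simp
    linarith
  · by_cases h : p2 (rep i) = 1
    · exact Or.inl h
    · obtain ⟨-, a, b, -⟩ := ord_of_p2 hN h
      exact Or.inr ⟨a, b⟩
  · change p1 (rep i) * p2 (rep i) ∣ cc (rep i)
    refine Dvd.dvd.trans ?_ (ord_dvd_cc _)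
    by_cases h : p2 (rep i) = 1
    · rw [h, mul_one]; exact Nat.minFac_dvd _
    · obtain ⟨-, -, -, e, f, ho⟩ := ord_of_p2 hN h
      conv_rhs => rw [ho]
      exact mul_dvd_mul (dvd_pow_self _ (by omega)) (dvd_pow_self _ (by omega))
  · obtain ⟨hp, hq, hl, e, f, ho⟩ := ord_of_p2 hN h
    obtain ⟨-, -, c, d⟩ := part_mul_part hp hq hl.ne ho
    obtain ⟨a1, a2, a3, -⟩ := part_data hp c j
    obtain ⟨b1, b2, b3, -⟩ := part_data hq d j
    exact ⟨a1, a2, b1, b2, a3, b3⟩
  · exact p1_of_pow (e := 0) Nat.prime_two h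
  · obtain ⟨hp, hq, hl, e, f, ho⟩ := ord_of_p2 hN h
    obtain ⟨-, -, c, -⟩ := part_mul_part hp hq hl.ne ho
    obtain ⟨-, -, -, a4⟩ := part_data hp c j
    have h2' : p1 (rep j) = 2 := h2
    have he : e = 0 := by
      by_contra he
      apply h4
      refine Dvd.dvd.trans ?_ (ord_dvd_cc (rep j))
      rw [ho, h2']
      exact (pow_dvd_pow 2 (show 2 ≤ e + 1 by omega)).mul_right _
    change orderOf (rep (cls (part (p1 (rep j)) (rep j)) j)) = 2
    rw [a4, he, h2']
    rfl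

end H95.KG
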