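import Cfsg.Agent.H3.P4T1
import Cfsg.Agent.H59.P4A

/-! Blueprint `LOCAL3C.md` 3.13: matrix computations modulo the centre of `SL₂(F)`. -/

set_option autoImplicit false
open Cfsg H47.P4C Subgroup H3.P4T H59.P4

namespace H95.T4

variable {F : Type*} [Field F]

theorem pr_one {A : SL2 F} : pr F A = 1 ↔ pm A := by
  change ((A : SL2 F) : PSL2 F) = 1 ↔ _
  rw [QuotientGroup.eq_one_iff, mem_center_iff]
  exact ⟨fun h => pm_of_central fun B => (h B).symm, fun h B => (h.comm B).symm⟩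

theorem pr_pm {A B : SL2 F} (h : pr F A = pr F B) : A = B ∨ A = -B := by
  have h1 : pr F (A * B⁻¹) = 1 := by rw [map_mul, map_inv, h, mul_inv_cancel]
  rcases pr_one.1 h1 with e | e
  · exact Or.inl (mul_inv_eq_one.1 e)
  · exact Or.inr (by rw [mul_inv_eq_iff_eq_mul] at e; rw [e]; simp)

/-- conjugation by `diag(1, -1)` -/
def dl0 (A : SL2 F) : SL2 F := ⟨!![A 0 0, -A 0 1; -A 1 0, A 1 1], by
    rw [Matrix.det_fin_two_of]; linear_combination det2 A⟩

theorem dl0_ap (A : SL2 F) : dl0 A 0 0 = A 0 0 ∧ dl0 A 0 1 = -A 0 1 ∧ dl0 A 1 0 = -A 1 0 ∧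
    dl0 A 1 1 = A 1 1 := ⟨rfl, rfl, rfl, rfl⟩

/-- conjugation by `diag(1, -1)` -/
def dl : SL2 F →* SL2 F := MonoidHom.mk' dl0 fun A B => by
  refine ext2 ?_ ?_ ?_ ?_ <;> simp only [mul_ap, dl0_ap] <;> ring

theorem dl_ap (A : SL2 F) : dl A 0 0 = A 0 0 ∧ dl A 0 1 = -A 0 1 ∧ dl A 1 0 = -A 1 0 ∧
    dl A 1 1 = A 1 1 := ⟨rfl, rfl, rfl, rfl⟩

theorem dl_dl (A : SL2 F) : dl (dl A) = A :=
  ext2 (by simp [dl_ap]) (by simp [dl_ap]) (by simp [dl_ap]) (by simp [dl_ap])

theorem dl_u (s : F) : dl (uM s) = uM (-s) :=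
  ext2 (by simp [dl_ap, u_ap]) (by simp [dl_ap, u_ap]) (by simp [dl_ap, u_ap])
    (by simp [dl_ap, u_ap])

/-- the induced automorphism of `PSL₂(F)` -/
def dlb : PSL2 F →* PSL2 F := QuotientGroup.map _ _ dl (fun A hA => by
  rw [mem_comap, mem_center_iff]
  intro B
  rw [← dl_dl B, ← map_mul, ← map_mul, mem_center_iff.1 hA])

theorem dlb_pr (A : SL2 F) : dlb (pr F A) = pr F (dl A) := rfl

theorem dlb_dlb (g : PSL2 F) : dlb (dlb g) = g := by
  obtain ⟨A, rfl⟩ := pr_surj g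
  rw [dlb_pr, dlb_pr, dl_dl]

theorem j_ap (h3 : (3 : F) = 0) : jM h3 0 0 = 1 ∧ jM h3 0 1 = 1 ∧ jM h3 1 0 = 1 ∧
    jM h3 1 1 = -1 := ⟨rfl, rfl, rfl, rfl⟩

/-- the centraliser of the four-group has exponent two -/
theorem sq_of_comm (h3 : (3 : F) = 0) {N : SL2 F} (h1 : pr F (N * wM) = pr F (wM * N))
    (h2 : pr F (N * jM h3) = pr F (jM h3 * N)) : pr F (N * N) = 1 := by
  have t2 := two_ne h3
  rw [pr_one]
  rcases pr_pm h1 with e | e <;> obtain ⟨a1, a2, a3, a4⟩ := ent e <;>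
    rcases pr_pm h2 with e' | e' <;> obtain ⟨b1, b2, b3, b4⟩ := ent e' <;>
    simp only [mul_ap, neg_ap, w_ap, j_ap] at a1 a2 a3 a4 b1 b2 b3 b4
  · have hb : N 0 1 = 0 := by
      apply mul_left_cancel₀ t2; linear_combination b1 - a1
    refine pm_of ?_ ?_ ?_ <;> simp only [mul_ap]
    · rw [hb]; ring
    · rw [show N 1 0 = 0 by linear_combination -a1 - hb]; ring
    · linear_combination (N 0 0 + N 1 1) * a2
  · have ha : N 0 0 = 0 := by
      apply mul_left_cancel₀ t2; linear_combination b1 + a1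
    have hd : N 1 1 = 0 := by linear_combination ha - a2
    refine pm_of ?_ ?_ ?_ <;> simp only [mul_ap, ha, hd] <;> ring
  all_goals
    have hd : N 1 1 = -N 0 0 := by linear_combination a2
    refine pm_of ?_ ?_ ?_ <;> simp only [mul_ap, hd] <;> ring

/-- no matrix of determinant `-1` centralises the four-group -/
theorem no_comm (h3 : (3 : F) = 0) (hn : ∀ a : F, a ^ 2 ≠ -1) {N : SL2 F}
    (h1 : pr F (N * dl wM) = pr F (wM * N))
    (h2 : pr F (N * dl (jM h3)) = pr F (jM h3 * N)) : False := by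
  have t2 := two_ne h3
  have d := det2 N
  rcases pr_pm h1 with e | e <;> obtain ⟨a1, a2, a3, a4⟩ := ent e <;>
    rcases pr_pm h2 with e' | e' <;> obtain ⟨b1, b2, b3, b4⟩ := ent e' <;>
    simp only [mul_ap, neg_ap, w_ap, j_ap, dl_ap] at a1 a2 a3 a4 b1 b2 b3 b4
  · have hb : N 0 1 = 0 := by
      apply mul_left_cancel₀ t2; linear_combination -b1 + a1
    have hd : N 1 1 = -N 0 0 := by linear_combination -a2
    rw [hb, hd] at d
    exact hn (N 0 0) (by linear_combination -d)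
  · have ha : N 0 0 = 0 := by
      apply mul_left_cancel₀ t2; linear_combination b1 + a1
    have hc : N 1 0 = N 0 1 := by linear_combination -a1
    rw [ha, hc] at d
    exact hn (N 0 1) (by linear_combination -d)
  · have hc : N 1 0 = -N 0 1 := by linear_combination a1
    have hd : N 1 1 = N 0 0 := by linear_combination a2
    have hb : N 0 1 = -N 0 0 := by
      apply mul_left_cancel₀ t2; linear_combination -b2 - hd
    rw [hc, hd, hb] at d
    exact hn (N 0 0) (by linear_combination -d + N 0 0 ^ 2 * h3)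
  · have hc : N 1 0 = -N 0 1 := by linear_combination a1
    have hb : N 0 1 = N 0 0 := by
      apply mul_left_cancel₀ t2; linear_combination -b1 + hc
    have hd : N 1 1 = N 0 0 := by linear_combination a2
    rw [hc, hd, hb] at d
    exact hn (N 0 0) (by linear_combination -d + N 0 0 ^ 2 * h3)

theorem wu_comm {s : F} (h : pr F (wM * uM s * wM⁻¹ * uM s) = pr F (uM s * (wM * uM s * wM⁻¹)))
    (h2 : (2 : F) ≠ 0) : s = 0 := by
  rw [w_inv] at h
  rcases pr_pm h with e | e <;> obtain ⟨a1, a2, a3, a4⟩ := ent e <;>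
    simp only [mul_ap, neg_ap, w_ap, u_ap] at a1 a2 a3 a4
  · exact pow_eq_zero_iff (two_ne_zero) |>.1 (by linear_combination a1)
  · apply mul_left_cancel₀ h2; linear_combination a2

theorem wj_sq (h3 : (3 : F) = 0) : wM * jM h3 * (wM * jM h3) = -1 := by
  obtain ⟨e1, e2⟩ := j_facts h3
  calc wM * jM h3 * (wM * jM h3) = -(jM h3 * wM) * (wM * jM h3) := by rw [← e2]
    _ = -(jM h3 * (wM * wM) * jM h3) := by rw [neg_mul]; congr 1; group
    _ = -1 := by rw [w_sq, mul_neg, mul_one, neg_mul, neg_neg, e1]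

end H95.T4
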