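/- PN tower (S3399), item ALT: the index of `K` in the stabiliser of its fixed set is small. -/
import Cfsg.Agent.H42.PnSpec

set_option autoImplicit false
set_option linter.unusedSectionVars false

namespace H95.PN
open Equiv MulAction Pointwise H2.Ln H42.PN

/-- Restriction of a permutation representation to an invariant predicate. -/
def res {N X : Type} [Group N] (ψ : N →* Perm X) (p : X → Prop)
    (h : ∀ y x, p (ψ y x) ↔ p x) : N →* Perm {x // p x} where
  toFun y := (ψ y).subtypePerm (h y)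
  map_one' := by ext x; simp
  map_mul' y z := by
    ext x
    show ψ (y * z) x = ψ y (ψ z x)
    simp

theorem idx {N X Y : Type} [Group N] [Finite N] [Finite X] [Finite Y] (ψ : N →* Perm X)
    (p : X → Prop) (hp : ∀ y x, p (ψ y x) ↔ p x) (χ : N →* Perm Y) (q : Y → Prop)
    (hq : ∀ y x, q (χ y x) ↔ q x) (K : Subgroup N)
    (hk : ∀ y, (∀ x, p x → ψ y x = x) → (∀ x, q x → χ y x = x) → y ∈ K) :
    K.index ≤ (Nat.card {x // p x}).factorial * (Nat.card {x // q x}).factorial := by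
  set φ := (res ψ p hp).prod (res χ q hq) with hφ
  have h1 : φ.ker ≤ K := by
    intro y hy
    rw [MonoidHom.mem_ker, hφ, MonoidHom.prod_apply, Prod.mk_eq_one] at hy
    refine hk y (fun x hx => ?_) (fun x hx => ?_)
    · exact congrArg Subtype.val (DFunLike.congr_fun hy.1 ⟨x, hx⟩)
    · exact congrArg Subtype.val (DFunLike.congr_fun hy.2 ⟨x, hx⟩)
  have h2 : K.index ≤ φ.ker.index :=
    Nat.le_of_dvd (Nat.pos_of_ne_zero Subgroup.FiniteIndex.index_ne_zero)
      (Subgroup.index_dvd_of_le h1)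
  rw [Subgroup.index_ker] at h2
  refine h2.trans ((Nat.card_le_card_of_injective _ φ.range.subtype_injective).trans ?_)
  rw [Nat.card_prod, Nat.card_perm, Nat.card_perm]

theorem arith {r ρ f : ℕ} (h : r * ρ = f) (h2 : 2 ≤ ρ) (hf : 3 ≤ f) :
    2 * (r.factorial * (ρ - 1).factorial) < f.factorial := by
  have h3 : r.factorial * (ρ - 1).factorial ≤ (f - 1).factorial := by
    rcases Nat.lt_or_ge r 2 with hr | hr
    · obtain rfl | rfl : r = 0 ∨ r = 1 := by omega
      · omega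
      · simp at h
        simp [h]
    · refine (Nat.le_of_dvd (Nat.factorial_pos _)
        (Nat.factorial_mul_factorial_dvd_factorial_add _ _)).trans (Nat.factorial_le ?_)
      obtain ⟨a, rfl⟩ := Nat.exists_eq_add_of_le hr
      obtain ⟨b, rfl⟩ := Nat.exists_eq_add_of_le h2
      have : (2 + a) * (2 + b) = 4 + 2 * a + 2 * b + a * b := by ring
      omega
  obtain ⟨g, rfl⟩ : ∃ g, f = g + 1 := ⟨f - 1, by omega⟩
  rw [Nat.factorial_succ]
  simp only [Nat.add_sub_cancel] at h3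
  have := Nat.factorial_pos g
  nlinarith

section
variable {α : Type} [Fintype α] [DecidableEq α] {G K R : Subgroup (Perm α)}

theorem out_sw {F : Finset α} {y : Perm α} (hy : y ∈ sw G F) {s : α} : y s ∉ F ↔ s ∉ F :=
  not_congr (sm_eq_iff'.1 (mem_sw.1 hy).2 s)

/-- The stabiliser of the fixed set normalises `K`. -/
theorem cjK (h : Cx G K) {y k : Perm α} (hy : y ∈ sw G (fp K)) (hk : k ∈ K) :
    y * k * y⁻¹ ∈ K := by
  have hG := (mem_sw.1 hy).1
  refine h.full (mem_fx.2 ⟨G.mul_mem (G.mul_mem hG (h.le hk)) (G.inv_mem hG), fun a ha => ?_⟩)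
  have : y⁻¹ a ∈ fp K := (sm_eq_iff'.1 (mem_sw.1 ((sw G _).inv_mem hy)).2 a).2 ha
  rw [Perm.mul_apply, Perm.mul_apply, mem_fp.1 this k hk]
  simp

/-- The stabiliser of the fixed set normalises `R`. -/
theorem cjR (h : C5 G K R) {y k : Perm α} (hy : y ∈ sw G (fp K)) (hk : k ∈ R) :
    y * k * y⁻¹ ∈ R := by
  obtain ⟨h1, h2⟩ := (h.memR k).1 hk
  refine (h.memR _).2 ⟨cjK h.toCx hy h1, ?_⟩
  rcases h2 with rfl | h2
  · simp
  · refine Or.inr fun s hs e => h2 (y⁻¹ s) ((out_sw ((sw G _).inv_mem hy)).2 hs) ?_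
    rw [Perm.eq_inv_iff_eq]
    simpa using e

theorem sm_orb (h : C5 G K R) {y : Perm α} (hy : y ∈ sw G (fp K)) (s : α) :
    y • orb R s = orb R (y s) := by
  ext a
  rw [mem_sm, mem_orb, mem_orb]
  constructor
  · rintro ⟨x, hx, e⟩
    exact ⟨_, cjR h hy hx, by simp [e]⟩
  · rintro ⟨x, hx, e⟩
    refine ⟨_, cjR h ((sw G _).inv_mem hy) hx, ?_⟩
    simp [e]

/-- `R` is semiregular outside the fixed set. -/
theorem card_orb (h : C5 G K R) {s : α} (hs : s ∉ fp K) : (orb R s).card = Nat.card R := by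
  rw [← Nat.card_eq_finsetCard]
  symm
  refine Nat.card_eq_of_bijective (fun k : R => (⟨k.1 s, mem_orb.2 ⟨k.1, k.2, rfl⟩⟩ : orb R s))
    ⟨fun k l e => ?_, fun a => ?_⟩
  · have e' : k.1 s = l.1 s := congrArg Subtype.val e
    rcases ((h.memR _).1 (R.mul_mem (R.inv_mem l.2) k.2)).2 with h1 | h1
    · exact Subtype.ext (inv_mul_eq_one.1 h1).symm
    · exact absurd (by simp [e']) (h1 s hs)
  · obtain ⟨x, hx, e⟩ := mem_orb.1 a.2
    exact ⟨⟨x, hx⟩, Subtype.ext e⟩

theorem count (h : C5 G K R) :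
    ((fp K)ᶜ.image (orb R)).card * Nat.card R = (fp K).card := by
  have h1 : ((fp K)ᶜ).card = (fp K).card := by
    rw [Finset.card_compl, h.half]
    omega
  rw [← h1, Finset.card_eq_sum_card_image (orb R), Finset.sum_const_nat]
  intro O hO
  obtain ⟨s, hs, rfl⟩ := Finset.mem_image.1 hO
  rw [Finset.mem_compl] at hs
  rw [← card_orb h hs]
  congr 1
  ext a
  rw [Finset.mem_filter, Finset.mem_compl]
  refine ⟨fun ha => ha.2 ▸ self_mem_orb, fun ha => ⟨?_, orb_eq ha⟩⟩
  obtain ⟨x, hx, rfl⟩ := mem_orb.1 ha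
  exact fun hb => hs ((sm_eq_iff'.1 (sm_fp ((h.memR x).1 hx).1) s).1 hb)
end

theorem jobAlt : Alt := by
  intro α _ _ G K R h hz
  have hin : ∀ y ∈ sw G (fp K), ∀ O ∈ (fp K)ᶜ.image (orb R), y • O ∈ (fp K)ᶜ.image (orb R) := by
    intro y hy O hO
    obtain ⟨s, hs, rfl⟩ := Finset.mem_image.1 hO
    rw [sm_orb h hy]
    exact Finset.mem_image_of_mem _
      (Finset.mem_compl.2 ((out_sw hy).2 (Finset.mem_compl.1 hs)))
  have key := idx ((MulAction.toPermHom (Perm α) (Finset α)).comp (sw G (fp K)).subtype)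
    (· ∈ (fp K)ᶜ.image (orb R))
    (fun y O => ⟨fun hO => by simpa using hin _ ((sw G _).inv_mem y.2) _ hO, hin _ y.2 O⟩)
    ((MulAut.toPerm (Perm α)).comp (MulAut.conj.comp (sw G (fp K)).subtype))
    (fun k => k ∈ R ∧ k ≠ 1)
    (fun y k => by
      show (y.1 * k * y.1⁻¹ ∈ R ∧ y.1 * k * y.1⁻¹ ≠ 1) ↔ (k ∈ R ∧ k ≠ 1)
      refine and_congr ⟨fun hk => ?_, cjR h y.2⟩ (by simp)
      simpa [mul_assoc] using cjR h ((sw G _).inv_mem y.2) hk)
    (K.subgroupOf (sw G (fp K))) (fun y h1 h2 => by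
      refine Subgroup.mem_subgroupOf.2 (hz y.1 y.2 (fun k hk => ?_) (fun s hs => ?_))
      · by_cases e : k = 1
        · simp [e]
        · have : y.1 * k * y.1⁻¹ = k := h2 k ⟨hk, e⟩
          exact mul_inv_eq_iff_eq_mul.1 this
      · have : y.1 • orb R s = orb R s :=
          h1 _ (Finset.mem_image_of_mem _ (Finset.mem_compl.2 hs))
        exact sm_eq_iff.1 this s self_mem_orb)
  have c1 : Nat.card {k : Perm α // k ∈ R ∧ k ≠ 1} = Nat.card R - 1 := by
    rw [← Nat.card_congr (Equiv.subtypeSubtypeEquivSubtypeInter (· ∈ R) (· ≠ 1))]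
    classical
    have := Fintype.card_subtype_compl (fun k : R => k = 1)
    rw [Fintype.card_subtype_eq, ← Nat.card_eq_fintype_card, ← Nat.card_eq_fintype_card] at this
    rw [← this]
    exact Nat.card_congr (Equiv.subtypeEquivRight fun k => by simp)
  have c2 : 2 ≤ Nat.card R := (Subgroup.one_lt_card_iff_ne_bot R).2 h.neR
  rw [c1, Nat.card_eq_finsetCard] at key
  have := arith (count h) c2 (by have := h.six; omega)
  show 2 * (K.subgroupOf (sw G (fp K))).index < _
  omega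

end H95.PN
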