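import Cfsg.Agent.H52.RCSpec

/-! RC: the job FA. -/

set_option autoImplicit false

namespace H95.RcFA

open H52.RC Subgroup

universe u

theorem jobFA : JobFA.{u} := by
  intro ka _ lz yy G _ _ m L _ st h
  obtain ⟨-, -, -, -, k5, -, k7, k8, k9⟩ := ka G
  obtain ⟨-, -, -, z4⟩ := lz G m L st
  have le2 : ∀ v, RG L v → (C1 v).relIndex (Ct L v) ≤ 2 := fun v hv => by
    obtain ⟨-, -, -, -, -, -, a7, -, -⟩ := z4 v hv
    obtain ⟨P, -, hP, -⟩ := k7 (Ct L v) ⊥ IsPGroup.of_bot bot_le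
    have le := (k9 ⊤ P hP.2.1 le_top).1
    rw [(a7 P hP).2, h, pow_succ] at le
    exact Nat.le_of_mul_le_mul_left le (by positivity)
  have two : ∀ v, RG L v → Two L v := fun v hv => (z4 v hv).2.2.2.2.2.2.2.2.2 (le2 v hv)
  have cl : ∀ v, RG L v → Cl (C1 v) := fun v hv => (yy G m L st v).2 hv (two v hv)
  refine ⟨fun v hv => ⟨two v hv, cl v hv⟩, fun g _ _ re k hv t ht hc => ?_,
    fun v hv ⟨g, hg, ne⟩ R hR hL hC => ?_⟩
  · obtain ⟨T, T1, T2, T3⟩ := cl _ hv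
    obtain ⟨-, a2, a3, -⟩ := z4 _ hv
    have c1 := (k9 _ T T2 T1).1
    obtain ⟨P, -, hP, c2⟩ := k7 (C1 g) ⊥ IsPGroup.of_bot bot_le
    rw [st.1 g re fun e => a2 (pow_mem e k)] at c2
    rw [a3, ← c2] at c1
    have e : P = T := eq_of_le_of_card_ge (fun x hx => T3 x
      (mem_C1.2 ((mem_C1.1 (hP.1 hx)).pow_right k)) ((k5 P).1 hP.2.1 x hx)) c1
    exact mem_C1.1 (hP.1 (e ▸ T3 t (mem_C1.2 hc) ht))
  · obtain ⟨-, -, -, -, -, -, a7, -, -⟩ := z4 v hv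
    obtain ⟨P, RP, hP, -⟩ := k7 (Ct L v) R hR hC
    have n1 : (C1 v).relIndex (Ct L v) ≠ 1 := fun e => ne (by
      rw [(mem_C1.1 (relIndex_eq_one.1 e hg)).eq, mul_inv_cancel_right])
    have n0 : (C1 v).relIndex (Ct L v) ≠ 0 := index_ne_zero_of_finite
    have c := (a7 P hP).2
    rw [show (C1 v).relIndex (Ct L v) = 2 by have := le2 v hv; omega, ← pow_succ, ← h] at c
    exact ⟨P ⊓ L, (k8 ⊤ P ((k9 ⊤ P hP.2.1 le_top).2 c)).2.1 L (normalizer_eq_top L).ge le_top,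
      le_inf RP hL, inf_le_left.trans hP.1⟩

end H95.RcFA
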